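import Cfsg.Agent.Lib.U5.QB

/-!
# S5210, `q = 2`: the group `UT₄(2)` in unitary coordinates

`⟨b0, b1, c, e0, e1, f⟩` stands for `b = b0 + b1 ω`, `c`, `e = e0 + e1 ω`, `f + ω Tr(b ē)`.
-/

set_option autoImplicit false

namespace Cfsg.Agent.U42

open Subgroup

@[ext] structure UT where
  b0 : Bool
  b1 : Bool
  c : Bool
  e0 : Bool
  e1 : Bool
  f : Bool
  deriving DecidableEq, Fintype

instance decAll (p : UT → Prop) [DecidablePred p] : Decidable (∀ x, p x) :=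
  decidable_of_iff (∀ a b c d e f, p ⟨a, b, c, d, e, f⟩)
    ⟨fun h _ => h _ _ _ _ _ _, fun h _ _ _ _ _ _ => h _⟩

instance decEx (p : UT → Prop) [DecidablePred p] : Decidable (∃ x, p x) :=
  decidable_of_iff (∃ a b c d e f, p ⟨a, b, c, d, e, f⟩)
    ⟨fun ⟨_, _, _, _, _, _, h⟩ => ⟨_, h⟩, fun ⟨_, h⟩ => ⟨_, _, _, _, _, _, h⟩⟩

/-- the first coordinate of `u v̄` -/
def re (u0 u1 v0 v1 : Bool) : Bool := (u0 && v0) ^^ ((u0 && v1) ^^ (u1 && v1))

instance : One UT := ⟨⟨false, false, false, false, false, false⟩⟩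

instance : Mul UT := ⟨fun x y => ⟨x.b0 ^^ y.b0, x.b1 ^^ y.b1, x.c ^^ y.c,
  x.e0 ^^ y.e0 ^^ (x.b0 && y.c), x.e1 ^^ y.e1 ^^ (x.b1 && y.c),
  x.f ^^ y.f ^^ (y.c && re x.b0 x.b1 y.b0 y.b1) ^^ re x.b0 x.b1 y.e0 y.e1 ^^ re x.e0 x.e1 y.b0 y.b1⟩⟩

instance : Inv UT := ⟨fun x => ⟨x.b0, x.b1, x.c, x.e0 ^^ (x.b0 && x.c), x.e1 ^^ (x.b1 && x.c),
  x.f ^^ (x.b1 && x.e0) ^^ (x.b0 && x.e1)⟩⟩

theorem mul_def (x y : UT) : x * y = ⟨x.b0 ^^ y.b0, x.b1 ^^ y.b1, x.c ^^ y.c,
  x.e0 ^^ y.e0 ^^ (x.b0 && y.c), x.e1 ^^ y.e1 ^^ (x.b1 && y.c),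
  x.f ^^ y.f ^^ (y.c && re x.b0 x.b1 y.b0 y.b1) ^^ re x.b0 x.b1 y.e0 y.e1 ^^
    re x.e0 x.e1 y.b0 y.b1⟩ := rfl

/-- a bit as a residue -/
def bt (b : Bool) : ZMod 2 := cond b 1 0

theorem bt_xor : ∀ a b, bt (a ^^ b) = bt a + bt b := by decide
theorem bt_and : ∀ a b, bt (a && b) = bt a * bt b := by decide
theorem bt_inj : ∀ {a b}, bt a = bt b → a = b := by decide

instance : Group UT := Group.ofLeftAxioms (fun x y z => by
  ext1 <;> apply bt_inj <;> simp only [mul_def, re, bt_xor, bt_and] <;> grind)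
  (by decide +kernel) (by decide +kernel)

theorem card_UT : Nat.card UT = 64 := by rw [Nat.card_eq_fintype_card]; decide +kernel

theorem isP : IsPGroup 2 UT := .of_card (n := 6) card_UT

theorem isPT : IsPGroup 2 (⊤ : Subgroup UT) := isP.to_subgroup _

/-- a subgroup from a test -/
def sub (p : UT → Bool) (h : p 1 ∧ (∀ x, p x → p x⁻¹) ∧ ∀ x, p x → ∀ y, p y → p (x * y)) :
    Subgroup UT where
  carrier := {x | p x}
  one_mem' := h.1
  mul_mem' := fun {x y} hx hy => h.2.2 x hx y hy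
  inv_mem' := fun {x} hx => h.2.1 x hx

def AA : Subgroup UT := sub (fun x => !x.b0 && !x.b1) (by decide +kernel)
def QQ : Subgroup UT := sub (fun x => !x.c) (by decide +kernel)
def Z2 : Subgroup UT := sub (fun x => !x.b0 && !x.b1 && !x.c) (by decide +kernel)
def Z1 : Subgroup UT := sub (fun x => !x.b0 && !x.b1 && !x.c && !x.e0 && !x.e1) (by decide +kernel)
def CC : Subgroup UT := sub (fun x => !x.b0 && !x.b1 && !x.c && !x.e1) (by decide +kernel)
def EE : Subgroup UT := sub (fun x => !x.b1 && !x.c && !x.e1) (by decide +kernel)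

instance : DecidablePred (· ∈ AA) := fun _ => inferInstanceAs (Decidable (_ = true))
instance : DecidablePred (· ∈ QQ) := fun _ => inferInstanceAs (Decidable (_ = true))
instance : DecidablePred (· ∈ Z2) := fun _ => inferInstanceAs (Decidable (_ = true))
instance : DecidablePred (· ∈ Z1) := fun _ => inferInstanceAs (Decidable (_ = true))
instance : DecidablePred (· ∈ CC) := fun _ => inferInstanceAs (Decidable (_ = true))
instance : DecidablePred (· ∈ EE) := fun _ => inferInstanceAs (Decidable (_ = true))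

instance : AA.Normal := ⟨by decide +kernel⟩
instance : QQ.Normal := ⟨by decide +kernel⟩
instance : Z2.Normal := ⟨by decide +kernel⟩
instance : Z1.Normal := ⟨by decide +kernel⟩
instance : EE.Normal := ⟨by decide +kernel⟩

def t1 : UT := ⟨true, false, false, false, false, false⟩
def t2 : UT := ⟨false, true, false, false, false, false⟩
def xc : UT := ⟨false, false, true, false, false, false⟩
def x0 : UT := ⟨false, false, false, true, false, false⟩
def x1 : UT := ⟨false, false, false, false, true, false⟩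
def zz : UT := ⟨false, false, false, false, false, true⟩

/-- the Weyl element of `QQ` -/
def n1 (x : UT) : UT := ⟨x.e0, x.e1, false, x.b0, x.b1, x.f⟩
/-- the Weyl element of `AA` in `PSU₄(2)` -/
def n2 (x : UT) : UT := ⟨false, false, x.f, x.e0 ^^ x.e1, x.e1, x.c⟩
/-- an element of `Aut(AA)` in `L₄(2)` -/
def g1 (x : UT) : UT := ⟨false, false, x.c ^^ x.f, x.e0, x.e0 ^^ x.e1 ^^ x.f, x.f⟩
/-- an element of `Aut(AA)` centralizing `t1` -/
def rr (x : UT) : UT := ⟨false, false, x.e1, x.e0 ^^ x.f, x.c, x.f⟩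
/-- an automorphism of order six -/
def nu (x : UT) : UT := ⟨x.b1, x.b0 ^^ x.b1, x.c, x.e1, x.e0 ^^ x.e1, x.f ^^ x.c⟩
def nui (x : UT) : UT := ⟨x.b0 ^^ x.b1, x.b0, x.c, x.e0 ^^ x.e1, x.e0, x.f ^^ x.c⟩

/-- What is needed of a model. -/
structure Mod (g : UT → UT) {G : Type*} [Group G] (ι : UT →* G) : Prop where
  inj : Function.Injective ι
  syl : H7.SylowIn 2 ι.range ⊤
  w1 : ∃ h : G, ∀ x ∈ QQ, ι (n1 x) = h * ι x * h⁻¹
  w2 : ∃ h : G, ∀ x ∈ AA, ι (g x) = h * ι x * h⁻¹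

end Cfsg.Agent.U42
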