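import Cfsg.Agent.Lib.U42.Defs

/-!
# S5210, `q = 2`: essential subgroups, overgroups of `AA`
-/

set_option autoImplicit false

namespace Cfsg.Agent.U42

open Subgroup Cfsg Cfsg.FusionSystem Cfsg.Agent.U5

variable {F E : FusionSystem (⊤ : Subgroup UT)} {P : Subgroup UT} {f : UT → UT}

namespace Es

theorem comm_AA : ∀ x ∈ AA, ∀ y ∈ AA, x * y = y * x := by decide +kernel
theorem sq_AA : ∀ x ∈ AA, x * x = 1 := by decide +kernel
theorem cent_AA : ∀ s : UT, (∀ a ∈ AA, a * s = s * a) → s ∈ AA := by decide +kernel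
theorem comm_Z1 : ∀ x ∈ Z1, ∀ y : UT, x * y = y * x := by decide +kernel
theorem cm_Z2 : ∀ x t : UT, x⁻¹ * (t * x * t⁻¹) ∈ Z2 := by decide +kernel
theorem cm_Z1 : ∀ x ∈ Z2, ∀ t : UT, x⁻¹ * (t * x * t⁻¹) ∈ Z1 ∧ t⁻¹ * (x * t * x⁻¹) ∈ Z1 := by
  decide +kernel
theorem Z1_Z2 : Z1 ≤ Z2 := by
  have : ∀ x ∈ Z1, x ∈ Z2 := by decide +kernel
  exact this
theorem Z2_AA : Z2 ≤ AA := by
  have : ∀ x ∈ Z2, x ∈ AA := by decide +kernel
  exact this

variable {M A : Subgroup (MulAut P)}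

theorem ef_sq (g : MulAut P) {z : UT} (hz : z ∈ P) (h : z ∈ AA) :
    equivFun g z * equivFun g z = 1 := by rw [← ef_mul g hz hz, sq_AA z h, ef_one]

theorem Z1_le (h : Loc 2 P M A) : Z1 ≤ P := fun x hx => h.cent x fun r _ => (comm_Z1 x hx r).symm

theorem L2 (h : Loc 2 P M A) {g₀ : MulAut P} (hg₀ : g₀ ∈ A) (hb₀ : g₀ ∉ M) (h1 : Inv g₀ Z1) :
    AA ≤ P ∨ P = QQ := by
  have e2 : Z2 ≤ P := fun t ht =>
    h.chain hg₀ hb₀ (H7.chain2_monotone Z1) rfl (n := 2) rfl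
      (fun i => match i with | 0 => Inv.bot | 1 => h1 | _ + 2 => Inv.top)
      (mem_norm_of_cm fun x _ => Z1_le h (cm_Z1 t ht x).2) fun i x _ hx =>
      match i, hx with
      | 0, hx => cm_eq_one (comm_Z1 x hx t)
      | 1, _ => (cm_Z1 t ht x).2
      | _ + 2, _ => trivial
  obtain ⟨U, hU1, hU2, ⟨g, hg, hb, hi⟩, hmax⟩ :=
    exists_max (M := M) (P := A ⊓ invS P Z1) Z1_Z2 e2 ⟨hg₀, h1⟩ hb₀ h1
  haveI : U.Normal := ⟨fun x hx t => by simpa using mul_mem hx (hU1 (cm_Z1 x (hU2 hx) t).1)⟩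
  have hg2 : Inv g Z1 := hg.2
  by_cases h2 : Inv g Z2
  · exact Or.inl fun t _ => h.chain hg.1 hb (ch3_mono Z1_Z2) rfl (n := 3) rfl
      (fun i => match i with | 0 => Inv.bot | 1 => hg2 | 2 => h2 | _ + 3 => Inv.top)
      (mem_norm_of_cm fun x _ => e2 (cm_Z2 x t)) fun i x _ hx =>
      match i, hx with
      | 0, hx => cm_eq_one (comm_Z1 x hx t)
      | 1, hx => (cm_Z1 x hx t).1
      | 2, _ => cm_Z2 x t
      | _ + 3, _ => trivial
  obtain ⟨z, hz, hw⟩ : ∃ z ∈ Z2, equivFun g z ∉ Z2 := by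
    by_contra! hle
    exact h2 fun x _ hx => hle x hx
  have hzU : z ∉ U := fun hu => hw (hU2 (hi z (e2 hz) hu))
  have D : ∀ x, x ∈ P ↔ (equivFun g z)⁻¹ * (x * equivFun g z * x⁻¹) ∈ Z1 := fun x =>
    ⟨fun hr => hg2.cm (e2 hz) hr (cm_Z1 z hz _).1, fun hx =>
      mem_of_max h.hW h.se inf_le_left
        (fun t ht => ⟨h.cj_A ht, mem_invS.2 (inv_conjAut' (C := Z1) ht)⟩) (hU2.trans e2)
        (e2 hz) (hmax z hz hzU) hg hb hi (fun r _ => hU1 (cm_Z1 z hz r).1) (hU1 hx)⟩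
  have key : ∀ w : UT, w * w = 1 → w ∉ Z2 → (∀ x ∈ AA, w⁻¹ * (x * w * x⁻¹) ∈ Z1) ∨
      ∀ x, w⁻¹ * (x * w * x⁻¹) ∈ Z1 ↔ x ∈ QQ := by decide +kernel
  exact (key _ (ef_sq g (e2 hz) (Z2_AA hz)) hw).imp (fun k x hx => (D x).2 (k x hx))
    fun k => Subgroup.ext fun x => (D x).trans (k x)

theorem d1 : ∀ y : UT, y * y = 1 → y ∉ AA → ∀ y', y' * y' = 1 → y⁻¹ * y' ∈ AA →
    ∃ u ∈ AA, y' = u * y * u⁻¹ := by decide +kernel

theorem d2 : ∀ s : UT, s * s = 1 → s ∉ AA → ∀ y, y * y = 1 → y ∉ AA → s * y ∉ AA → s * y = y * s →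
    ∀ y', y' * y' = 1 → y⁻¹ * y' ∈ AA → s * y' = y' * s →
    ∃ u ∈ AA, u * s = s * u ∧ y' = u * y * u⁻¹ := by decide +kernel

/-- the complement of `AA` -/
def tb (x : UT) : UT := ⟨x.b0, x.b1, false, false, false, false⟩

theorem tb_spec : ∀ x : UT, (tb x)⁻¹ * x ∈ AA ∧ tb x * tb x = 1 ∧ ∀ y, tb x * tb y = tb y * tb x := by
  decide +kernel

theorem four : ∀ a b c d : Bool, ∀ s s' : UT, s = ⟨a, b, false, false, false, false⟩ →
    s' = ⟨c, d, false, false, false, false⟩ → s ∉ AA → s' ∉ AA → s * s' ∉ AA →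
    ∀ x, x ∈ AA ∨ s * x ∈ AA ∨ s' * x ∈ AA ∨ s * s' * x ∈ AA := by
  intro a b c d s s' h1 h2
  subst h1 h2
  revert a b c d
  decide +kernel

theorem exists_conj {f' : UT → UT} (hP : AA ≤ P) (hf : F.IsMor P f) (hf' : E.IsMor P f')
    (hi : F.IsIso AA AA f) (e : ∀ x ∈ AA, f' x = f x) :
    ∃ u, ∀ x ∈ P, f x = u * f' x * u⁻¹ := by
  have n1 : ∀ s ∈ P, s ∉ AA → f s ∉ AA := fun s hs h1 h2 => h1 (cent_AA s fun a ha =>
    hf.inj (mul_mem (hP ha) hs) (mul_mem hs (hP ha)) (by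
      rw [hf.map_mul (hP ha) hs, hf.map_mul hs (hP ha), comm_AA _ (hi.mapsTo a ha) _ h2]))
  have c1 : ∀ s ∈ P, (f' s)⁻¹ * f s ∈ AA := fun s hs => cent_AA _ fun a ha => by
    obtain ⟨b, hb, rfl⟩ := hi.surj a ha
    have k := e _ ((inferInstance : AA.Normal).conj_mem b hb s)
    rw [hf.map_conj hs (hP hb), hf'.map_conj hs (hP hb), e b hb] at k
    calc f b * ((f' s)⁻¹ * f s) = (f' s)⁻¹ * (f' s * f b * (f' s)⁻¹) * f s := by group
      _ = _ := by rw [k]; group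
  have n2 : ∀ s ∈ P, s ∉ AA → f' s ∉ AA := fun s hs h1 h2 =>
    n1 s hs h1 (by simpa using mul_mem h2 (c1 s hs))
  let K : UT → Subgroup UT := fun u =>
    { carrier := {x | x ∈ P ∧ f x = u * f' x * u⁻¹}
      one_mem' := ⟨one_mem _, by simp [hf.map_one, hf'.map_one]⟩
      mul_mem' := fun {x y} hx hy => ⟨mul_mem hx.1 hy.1, by
        rw [hf.map_mul hx.1 hy.1, hf'.map_mul hx.1 hy.1, hx.2, hy.2]; group⟩
      inv_mem' := fun {x} hx => ⟨inv_mem hx.1, by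
        rw [hf.map_inv hx.1, hf'.map_inv hx.1, hx.2]; group⟩ }
  have hK : ∀ u ∈ AA, AA ≤ K u := fun u hu x hx => ⟨hP hx, by
    rw [e x hx, comm_AA u hu _ (hi.mapsTo x hx), mul_inv_cancel_right]⟩
  have tP : ∀ x ∈ P, tb x ∈ P := fun x hx => by
    simpa using inv_mem ((mul_mem_cancel_right hx).1 (hP (tb_spec x).1))
  have tK : ∀ u ∈ AA, ∀ x, tb x ∈ K u → x ∈ K u := fun u hu x h => by
    simpa using mul_mem h (hK u hu (tb_spec x).1)
  have sq : ∀ x ∈ P, f (tb x) * f (tb x) = 1 ∧ f' (tb x) * f' (tb x) = 1 := fun x hx => by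
    rw [← hf.map_mul (tP x hx) (tP x hx), ← hf'.map_mul (tP x hx) (tP x hx), (tb_spec x).2.1]
    exact ⟨hf.map_one, hf'.map_one⟩
  by_cases h0 : P ≤ K 1
  · exact ⟨1, fun x hx => (h0 hx).2⟩
  obtain ⟨x, hx, h1⟩ := SetLike.not_le_iff_exists.1 h0
  have a1 : tb x ∉ AA := fun h => h1 (tK 1 (one_mem _) x (hK 1 (one_mem _) h))
  obtain ⟨u, hu, e1⟩ := d1 _ (sq x hx).2 (n2 _ (tP x hx) a1) _ (sq x hx).1 (c1 _ (tP x hx))
  by_cases h2 : P ≤ K u
  · exact ⟨u, fun x hx => (h2 hx).2⟩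
  obtain ⟨y, hy, h3⟩ := SetLike.not_le_iff_exists.1 h2
  have a2 : tb y ∉ AA := fun h => h3 (tK u hu y (hK u hu h))
  have k1 : tb x ∈ K u := ⟨tP x hx, e1⟩
  have a3 : tb x * tb y ∉ AA := fun h => h3 (tK u hu y ((mul_mem_cancel_left k1).1 (hK u hu h)))
  have nA : ∀ z, u * z * u⁻¹ ∈ AA → z ∈ AA := fun z h =>
    (mul_mem_cancel_left hu).1 ((mul_mem_cancel_right (inv_mem hu)).1 h)
  have m1 := hf'.map_mul (tP x hx) (tP y hy)
  have m2 := hf'.map_mul (tP y hy) (tP x hx)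
  rw [← (tb_spec x).2.2 y, m1] at m2
  obtain ⟨v, hv, e2, e3⟩ := d2 (f (tb x)) (sq x hx).1 (n1 _ (tP x hx) a1) (u * f' (tb y) * u⁻¹)
    (by rw [conj_mul, (sq y hy).2]; simp) (fun h => n2 _ (tP y hy) a2 (nA _ h))
    (fun h => n2 _ (mul_mem (tP x hx) (tP y hy)) a3 (nA _ (by rwa [e1, conj_mul, ← m1] at h)))
    (by rw [e1, conj_mul, conj_mul, m2]) (f (tb y)) (sq y hy).1
    (by
      have := mul_mem (mul_mem hu ((inferInstance : AA.Normal).conj_mem _ (inv_mem hu) (f' (tb y))⁻¹))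
        (c1 _ (tP y hy))
      simpa [mul_assoc] using this)
    (by rw [← hf.map_mul (tP x hx) (tP y hy), ← hf.map_mul (tP y hy) (tP x hx), (tb_spec x).2.2 y])
  have hw := mul_mem hv hu
  have k2 : tb x ∈ K (v * u) := ⟨tP x hx, by
    rw [show v * u * f' (tb x) * (v * u)⁻¹ = v * (u * f' (tb x) * u⁻¹) * v⁻¹ by group, ← e1, e2,
      mul_inv_cancel_right]⟩
  have k3 : tb y ∈ K (v * u) := ⟨tP y hy, by rw [e3]; group⟩
  refine ⟨v * u, fun z _ => (?_ : z ∈ K (v * u)).2⟩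
  rcases four _ _ _ _ (tb x) (tb y) rfl rfl a1 a2 a3 z with h | h | h | h
  · exact hK _ hw h
  · exact (mul_mem_cancel_left k2).1 (hK _ hw h)
  · exact (mul_mem_cancel_left k3).1 (hK _ hw h)
  · exact (mul_mem_cancel_left (mul_mem k2 k3)).1 (hK _ hw h)

end Es

open Es

theorem map_AA (hf : F.IsMor P f) (hP : AA ≤ P) : ∀ x ∈ AA, f x ∈ AA := fun x hx => by
  by_contra hy
  have sq : ∀ v ∈ AA, f v * f v = 1 := fun v hv => by
    rw [← hf.map_mul (hP hv) (hP hv), sq_AA v hv, hf.map_one]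
  have key : ∀ y : UT, y ∉ AA → y * y = 1 →
      (Finset.univ.filter fun v => v * y = y * v ∧ v * v = 1).card <
        (Finset.univ.filter (· ∈ AA)).card := by decide +kernel
  refine (key _ hy (sq x hx)).not_ge (Finset.card_le_card_of_injOn f (fun v hv => ?_)
    fun v hv w hw => hf.inj (hP (by simpa using hv)) (hP (by simpa using hw)))
  have hv : v ∈ AA := by simpa using hv
  simp only [Finset.coe_filter, Finset.mem_univ, true_and, Set.mem_setOf_eq]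
  exact ⟨by rw [← hf.map_mul (hP hv) (hP hx), ← hf.map_mul (hP hx) (hP hv), comm_AA v hv x hx],
    sq v hv⟩

theorem ess_cases (hF : F.IsSaturated 2) (hE : F.IsEssential 2 P) : AA ≤ P ∨ P = QQ := by
  obtain ⟨M, h⟩ := exists_loc isP hF hE
  obtain ⟨g₀, hg₀, hb₀⟩ := h.data.exists_not_mem
  obtain ⟨U, -, hU2, ⟨g, hg, hb, hi⟩, hmax⟩ :=
    exists_max (M := M) (P := F.autGroup P) (Z := ⊥) bot_le (Z1_le h) hg₀ hb₀ Inv.bot
  haveI : U.Normal := ⟨fun x hx t => by rwa [← comm_Z1 x (hU2 hx), mul_inv_cancel_right]⟩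
  by_cases h1 : Inv g Z1
  · exact L2 h hg hb h1
  obtain ⟨z, hz, hw⟩ : ∃ z ∈ Z1, equivFun g z ∉ Z1 := by
    by_contra! hle
    exact h1 fun x _ hx => hle x hx
  have hzR := Z1_le h hz
  have hzU : z ∉ U := fun hu => hw (hU2 (hi z hzR hu))
  have D : ∀ x, x * equivFun g z = equivFun g z * x → x ∈ P := fun x hx =>
    mem_of_max h.hW h.se le_rfl (fun t ht => h.cj_A ht) (hU2.trans (Z1_le h))
      hzR (hmax z hz hzU) hg hb hi (fun r _ => bot_le (a := U) (cm_eq_one (comm_Z1 z hz r)))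
      (bot_le (a := U) (cm_eq_one hx.symm))
  have key : ∀ w : UT, w * w = 1 → w ∉ AA → ∀ z ∈ Z1, ∃ v, v * w = w * v ∧ v * v = z := by
    decide +kernel
  have sq : ∀ v : UT, v * v ∈ AA := by decide +kernel
  have hA : equivFun g z ∈ AA := by
    by_contra hA
    obtain ⟨v, h2, h3⟩ := key _ (ef_sq g hzR (Z2_AA (Z1_Z2 hz))) hA z hz
    exact hA (by rw [← h3, ef_mul g (D v h2) (D v h2)]; exact sq _)
  exact Or.inl fun x hx => D x (comm_AA x hx _ hA)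

theorem ext_AA (hE : E.IsSaturated 2) (hP : AA ≤ P) (hf : F.IsMor P f) (h : E.IsMor AA f) :
    E.IsMor P f := by
  have hm := map_AA hf hP
  have hn : (⊤ : Subgroup UT) ≤ normalizer (AA : Set UT) := by rw [normalizer_eq_top]
  obtain ⟨f', h1, h2⟩ := (hE.isReceptive isPT
    (E.isFullyNormalized_of_le_normalizer le_top hn)).exists_ext_of_le (h.isIso_self hm) (R := P)
    fun t ht => mem_extSub.2 ⟨trivial, hn trivial, f t, trivial, fun x hx => hf.map_conj ht (hP hx)⟩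
  rw [sup_eq_right.2 hP] at h1
  obtain ⟨u, hu⟩ := exists_conj hP hf h1 ((hf.mono hP).isIso_self hm) h2
  exact ((E.isMor_conj le_rfl (mem_top u)).comp' h1 fun _ _ => trivial).congr
    fun x hx => (hu x hx).symm

end Cfsg.Agent.U42
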