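import Cfsg.Agent.Lib.U42.Defs
import Cfsg.Agent.Lib.U4.Model

/-!
# S5210, `q = 2`: the models `L₄(2)` and `SU₄(2)`
-/

set_option autoImplicit false

namespace Cfsg.Agent.U42

open Subgroup Cfsg Cfsg.FusionSystem Cfsg.Agent.U5 Matrix

universe u

namespace MD

/-- the matrix over the field with two elements -/
def mat (x : UT) : Matrix (Fin 4) (Fin 4) (ZMod 2) :=
  !![1, bt x.b0 + bt x.b1, bt x.e0 + bt x.e1, bt x.f + bt x.e0 + bt x.b0 * bt x.e0;
    0, 1, bt x.c, bt x.e1 + bt x.b1 * bt x.c; 0, 0, 1, bt x.b1; 0, 0, 0, 1]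

theorem mat_mul (x y : UT) : mat (x * y) = mat x * mat y := by
  simp only [← Matrix.ext_iff, U4.forall4, mat, mul_apply, Fin.sum_univ_four, of_apply, cons_val]
  revert x y
  decide +kernel

/-- the embedding in `GL₄(2)` -/
def iL : UT →* GL (Fin 4) (ZMod 2) :=
  MonoidHom.toHomUnits ⟨⟨mat, by decide +kernel⟩, mat_mul⟩

theorem iL_val (x : UT) : (iL x : Matrix (Fin 4) (Fin 4) (ZMod 2)) = mat x := rfl

theorem iL_inj : Function.Injective iL := (injective_iff_map_eq_one _).2 fun x hx => by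
  have h : mat x = 1 := congrArg Units.val hx
  revert x
  decide +kernel

section
variable {K : Type u} [Field K]

/-- a bit as an element of a field -/
def bk (b : Bool) : K := cond b 1 0

theorem bk_xor (h2 : (2 : K) = 0) (a b : Bool) : (bk (a ^^ b) : K) = bk a + bk b := by
  cases a <;> cases b <;> simp [bk, one_add_one_eq_two, h2]

theorem bk_and (a b : Bool) : (bk (a && b) : K) = bk a * bk b := by
  cases a <;> cases b <;> simp [bk]

theorem bk_false : (bk false : K) = 0 := rfl

variable [StarRing K]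

theorem star_bk (a : Bool) : star (bk a : K) = bk a := by cases a <;> simp [bk]

variable {w : K} (h2 : (2 : K) = 0) (hw : w ^ 2 + w + 1 = 0) (hs : star w = w + 1)

/-- the unitary coordinates -/
def toU (x : UT) : U4.US K :=
  ⟨bk x.b0 + bk x.b1 * w, bk x.c, bk x.e0 + bk x.e1 * w,
    bk x.f + w * (bk x.b0 * bk x.e1 + bk x.b1 * bk x.e0),
    by rw [star_bk]; linear_combination bk x.c * h2,
    by simp only [star_add, star_mul', star_bk, hs]; grind⟩

include hw in
theorem toU_mul (x y : UT) : toU h2 hs (x * y) = toU h2 hs x * toU h2 hs y := by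
  ext <;> simp only [toU, mul_def, re, bk_xor h2, bk_and, U4.US.mul_b, U4.US.mul_c, U4.US.mul_e,
    U4.US.mul_f, star_add, star_mul', star_bk, hs] <;> grind

include hw in
theorem eq_false {a b : Bool} (h : bk a + bk b * w = 0) : a = false ∧ b = false := by
  cases a <;> cases b <;> simp [bk] at h ⊢ <;> grind

theorem toU_inj : Function.Injective (MonoidHom.mk' _ (toU_mul h2 hw hs)) :=
  (injective_iff_map_eq_one _).2 fun x hx => by
    obtain ⟨a1, a2⟩ := eq_false hw (congrArg U4.US.b hx)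
    obtain ⟨a3, a4⟩ := eq_false hw (congrArg U4.US.e hx)
    have a5 := eq_false (a := x.c) (b := false) hw (by
      rw [bk_false, zero_mul, add_zero]; exact congrArg U4.US.c hx)
    have a6 : (bk x.f : K) = 0 := by
      simpa [toU, a1, a2, bk_false] using congrArg U4.US.f hx
    have a7 := eq_false (a := x.f) (b := false) hw (by rw [a6, bk_false, zero_mul, add_zero])
    exact UT.ext a1 a2 a5.1 a3 a4 a7.1

theorem toU_surj (h4 : ∀ x : K, x ^ 4 = x) :
    Function.Surjective (MonoidHom.mk' _ (toU_mul h2 hw hs)) := fun y => by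
  have dec : ∀ x : K, ∃ a b, x = bk a + bk b * w := fun x => by
    have : x * (x + 1) * (x + w) * (x + w + 1) = 0 := by have := h4 x; grind
    simp only [mul_eq_zero] at this
    rcases this with ((h | h) | h) | h
    · exact ⟨false, false, by simp [bk, h]⟩
    · exact ⟨true, false, by simp [bk]; grind⟩
    · exact ⟨false, true, by simp [bk]; grind⟩
    · exact ⟨true, true, by simp [bk]; grind⟩
  have real : ∀ x : K, star x = x → ∃ a, x = bk a := fun x hx => by
    obtain ⟨a, b, rfl⟩ := dec x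
    simp only [star_add, star_mul', star_bk, hs] at hx
    exact ⟨a, by grind⟩
  obtain ⟨b0, b1, hb⟩ := dec y.b
  obtain ⟨e0, e1, he⟩ := dec y.e
  obtain ⟨c, hc⟩ := real y.c (by have := y.hc; grind)
  obtain ⟨f, hf⟩ := real (y.f + w * (bk b0 * bk e1 + bk b1 * bk e0)) (by
    have := y.hf
    simp only [hb, he, star_add, star_mul', star_bk, hs] at this ⊢
    grind)
  exact ⟨⟨b0, b1, c, e0, e1, f⟩, U4.US.ext hb.symm hc.symm he.symm (by
    show bk f + w * (bk b0 * bk e1 + bk b1 * bk e0) = y.f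
    grind)⟩

end

end MD

open MD

theorem mod_L : ∃ (G : Type) (_ : Group G) (_ : Finite G) (ι : UT →* G), Mod g1 ι := by
  refine ⟨_, inferInstance, inferInstance, iL, iL_inj,
    H7.sylowIn_of_not_dvd_relIndex le_top (isP.of_surjective _ iL.rangeRestrict_surjective) ?_,
    ⟨⟨!![1, 1, 1, 0; 0, 0, 1, 1; 0, 1, 0, 1; 0, 0, 0, 1],
      !![1, 1, 1, 0; 0, 0, 1, 1; 0, 1, 0, 1; 0, 0, 0, 1], by decide +kernel, by decide +kernel⟩,
      fun x hx => eq_mul_inv_of_mul_eq (Units.ext ?_)⟩,
    ⟨⟨!![1, 0, 0, 0; 1, 1, 0, 0; 0, 0, 1, 0; 0, 0, 1, 1],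
      !![1, 0, 0, 0; 1, 1, 0, 0; 0, 0, 1, 0; 0, 0, 1, 1], by decide +kernel, by decide +kernel⟩,
      fun x hx => eq_mul_inv_of_mul_eq (Units.ext ?_)⟩⟩
  · have h := iL.range.card_mul_index
    rw [← Nat.card_congr (MonoidHom.ofInjective iL_inj).toEquiv, card_UT, card_GL_field] at h
    simp [Fin.prod_univ_four] at h
    rw [relIndex_top_right]
    omega
  · simp only [Units.val_mul, iL_val]
    revert x
    decide +kernel
  · simp only [Units.val_mul, iL_val]
    revert x
    decide +kernel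

theorem mod_U {K : Type u} [Field K] [StarRing K] [UF K] (hq : Nat.card K = 4) :
    (2 : K) = 0 ∧ Nonempty (U4.US K ≃* UT) ∧
      ∃ (G : Type u) (_ : Group G) (_ : Finite G) (ι : UT →* G), Mod n2 ι := by
  obtain ⟨q, hq2, h1, hσ⟩ := exists_q (K := K)
  obtain rfl : q = 2 := by rw [hq] at h1; nlinarith
  have := Fintype.ofFinite K
  rw [Nat.card_eq_fintype_card] at hq
  have h2 : (2 : K) = 0 := by
    have := FiniteField.cast_card_eq_zero K
    rw [hq] at this
    exact pow_eq_zero_iff (n := 2) (by norm_num) |>.1 (by push_cast at this; linear_combination this)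
  have h4 : ∀ x : K, x ^ 4 = x := fun x => hq ▸ FiniteField.pow_card x
  obtain ⟨w, hw0⟩ := exists_star_ne K
  rw [hσ] at hw0
  have hw : w ^ 2 + w + 1 = 0 :=
    mul_left_cancel₀ (sub_ne_zero.2 hw0) (by linear_combination h4 w)
  have hs : star w = w + 1 := by rw [hσ]; linear_combination hw - (w + 1) * h2
  haveI : CharP K 2 := (CharP.charP_iff_prime_eq_zero Nat.prime_two).2 (by exact_mod_cast h2)
  let φ := MonoidHom.mk' _ (toU_mul h2 hw hs)
  refine ⟨h2, ⟨(MulEquiv.ofBijective φ ⟨toU_inj h2 hw hs, toU_surj h2 hw hs h4⟩).symm⟩,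
    U4.SUJ K, inferInstance, inferInstance, U4.emb.comp φ, U4.emb_inj.comp (toU_inj h2 hw hs),
    ?_, ?_, ?_⟩
  · rw [MonoidHom.range_comp, MonoidHom.range_eq_top.2 (toU_surj h2 hw hs h4),
      ← MonoidHom.range_eq_map]
    exact U4.sylow_emb
  · obtain ⟨g, h, -⟩ := U4.exists_n1 (K := K) 1 (by simp; linear_combination h2)
    refine ⟨g, fun x hx => Eq.trans (congrArg U4.emb ?_) (h (φ x) ?_)⟩
    · ext <;> simp [φ, toU, n1, bk_false] <;> grind
    · have : x.c = false := by revert x; decide +kernel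
      show bk x.c = 0
      rw [this, bk_false]
  · obtain ⟨g, h, -⟩ := U4.exists_n2 (K := K)
    refine ⟨g, fun x hx => ?_⟩
    have : x.b0 = false ∧ x.b1 = false := by revert x; decide +kernel
    refine Eq.trans (congrArg U4.emb ?_) (h (φ x) ?_)
    · ext <;> simp [φ, toU, n2, bk_false, this.1, this.2, bk_xor h2, star_bk, hs]; ring
    · show bk x.b0 + bk x.b1 * w = 0
      rw [this.1, this.2, bk_false, zero_mul, add_zero]

end Cfsg.Agent.U42
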