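import Cfsg.Agent.Lib.U42.Ess

/-!
# S5210, `q = 2`: the automizer of `QQ`
-/

set_option autoImplicit false

namespace Cfsg.Agent.U42

open Subgroup Cfsg Cfsg.FusionSystem Cfsg.Agent.U5

variable {F : FusionSystem (⊤ : Subgroup UT)} {f : UT → UT}

namespace QA

theorem cond_mem {K : Subgroup UT} (b : Bool) {y : UT} (hy : y ∈ K) : cond b y 1 ∈ K := by
  cases b; exacts [one_mem _, hy]

theorem gen_Z2 {K : Subgroup UT} (h0 : x0 ∈ K) (h1 : x1 ∈ K) (hz : zz ∈ K) : Z2 ≤ K := fun x hx => by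
  have key : ∀ x ∈ Z2, x = cond x.e0 x0 1 * cond x.e1 x1 1 * cond x.f zz 1 := by decide +kernel
  rw [key x hx]
  exact mul_mem (mul_mem (cond_mem _ h0) (cond_mem _ h1)) (cond_mem _ hz)

theorem gen_QQ {K : Subgroup UT} (ha : t1 ∈ K) (hb : t2 ∈ K) (hZ : Z2 ≤ K) : QQ ≤ K := fun x hx => by
  have key : ∀ x ∈ QQ, (cond x.b0 t1 1 * cond x.b1 t2 1)⁻¹ * x ∈ Z2 := by decide +kernel
  exact (mul_mem_cancel_left (inv_mem (mul_mem (cond_mem x.b0 ha) (cond_mem x.b1 hb)))).1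
    (hZ (key x hx))

theorem Z2_le : Z2 ≤ QQ := show ∀ x ∈ Z2, x ∈ QQ by decide +kernel

/-- an automorphism of `QQ` -/
structure Au (f : UT → UT) : Prop where
  hom : IsHomOn QQ f
  mem : ∀ x ∈ QQ, f x ∈ QQ
  inj : ∀ x ∈ QQ, ∀ y ∈ QQ, f x = f y → x = y

theorem au_iso (h : F.IsIso QQ QQ f) : Au f :=
  ⟨h.mor.isHomOn, h.mapsTo, fun _ hx _ hy e => h.mor.inj hx hy e⟩

theorem au_n1 : Au n1 := ⟨by unfold IsHomOn; decide +kernel, by decide +kernel, by decide +kernel⟩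

theorem Au.comp {g : UT → UT} (hg : Au g) (hf : Au f) : Au fun x => g (f x) :=
  ⟨hg.hom.comp hf.hom hf.mem, fun x hx => hg.mem _ (hf.mem x hx),
    fun x hx y hy e => hf.inj x hx y hy (hg.inj _ (hf.mem x hx) _ (hf.mem y hy) e)⟩

theorem Au.sq (h : Au f) {x : UT} (hx : x ∈ QQ) (h1 : x * x = 1) : f x * f x = 1 := by
  rw [← h.hom.map_mul hx hx, h1, h.hom.map_one]

theorem Au.zz (h : Au f) : f zz = zz := by
  have hy : t1 * x1 ∈ QQ := by decide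
  have e : f U42.zz = f (t1 * x1) * f (t1 * x1) := by
    rw [← h.hom.map_mul hy hy]; rfl
  have key : ∀ w ∈ QQ, w * w = 1 ∨ w * w = U42.zz := by decide +kernel
  refine (key _ (h.mem _ hy)).elim (fun h1 => absurd (h.inj U42.zz (by decide) 1 (one_mem _)
    (by rw [e, h1, h.hom.map_one])) (by decide)) fun h1 => e.trans h1

theorem Z1_iff : ∀ w, w ∈ Z1 ↔ w = 1 ∨ w = zz := by decide +kernel

theorem Au.nZ1 (h : Au f) {x : UT} (hx : x ∈ QQ) (h1 : x ∉ Z1) : f x ∉ Z1 := fun h2 => by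
  rcases (Z1_iff _).1 h2 with e | e
  · exact h1 ((Z1_iff _).2 (Or.inl (h.inj x hx 1 (one_mem _) (e.trans h.hom.map_one.symm))))
  · exact h1 ((Z1_iff _).2 (Or.inr (h.inj x hx _ (by decide) (e.trans h.zz.symm))))

theorem Au.mapZ2 (h : Au f) (h0 : f x0 ∈ Z2) (h1 : f x1 ∈ Z2) : ∀ x ∈ Z2, f x ∈ Z2 := fun x hx =>
  (h.hom.mem_preim.1 (gen_Z2 (K := h.hom.preim Z2) (h.hom.mem_preim.2 ⟨by decide, h0⟩)
    (h.hom.mem_preim.2 ⟨by decide, h1⟩) (h.hom.mem_preim.2 ⟨by decide, by rw [h.zz]; decide⟩) hx)).2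

/-- an element outside `Z2` stays outside `Z2` -/
theorem Au.nZ2 (h : Au f) (hZ : ∀ x ∈ Z2, f x ∈ Z2) {x : UT} (hx : x ∈ QQ) (h1 : x ∉ Z2) :
    f x ∉ Z2 := fun h2 => by
  have key : ∀ x ∈ QQ, x ∉ Z2 → ∃ y ∈ Z2, x * y ≠ y * x := by decide +kernel
  have k2 : ∀ x ∈ Z2, ∀ y ∈ Z2, x * y = y * x := by decide +kernel
  obtain ⟨y, hy, hne⟩ := key x hx h1
  have hy' := Z2_le hy
  exact hne (h.inj _ (mul_mem hx hy') _ (mul_mem hy' hx)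
    (by rw [h.hom.map_mul hx hy', h.hom.map_mul hy' hx, k2 _ h2 _ (hZ y hy)]))

theorem Au.step (h : Au f) (hZ : ∀ x ∈ Z2, f x ∈ Z2) {t : UT} (ht : t ∈ QQ) (h1 : t ∉ Z2) :
    (xc * f t * xc⁻¹)⁻¹ * f (xc * t * xc⁻¹) ∈ Z1 := by
  have key : ∀ t ∈ QQ, t ∉ Z2 → t⁻¹ * (xc * t * xc⁻¹) ∈ Z2 ∧ t⁻¹ * (xc * t * xc⁻¹) ∉ Z1 ∧
      t * (t⁻¹ * (xc * t * xc⁻¹)) = t⁻¹ * (xc * t * xc⁻¹) * t := by decide +kernel
  have k2 : ∀ a ∈ QQ, a ∉ Z2 → ∀ c ∈ Z2, c ∉ Z1 → a * c = c * a →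
      (xc * a * xc⁻¹)⁻¹ * (a * c) ∈ Z1 := by decide +kernel
  obtain ⟨k3, k4, k5⟩ := key t ht h1
  have := k2 _ (h.mem t ht) (h.nZ2 hZ ht h1) _ (hZ _ k3) (h.nZ1 (Z2_le k3) k4)
    (by rw [← h.hom.map_mul ht (Z2_le k3), k5, h.hom.map_mul (Z2_le k3) ht])
  rwa [← h.hom.map_mul ht (Z2_le k3), mul_inv_cancel_left] at this

set_option synthInstance.maxSize 2048 in
/-- Lemma D -/
theorem Au.exists_conj (h : Au f) (hZ : ∀ x ∈ Z2, f x ∈ Z2) :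
    ∃ s ∈ AA, s ∉ QQ ∧ ∀ x ∈ QQ, f (xc * x * xc⁻¹) = s * f x * s⁻¹ := by
  have key : ∀ a ∈ QQ, a ∉ Z2 → ∀ b ∈ QQ, b ∉ Z2 → a * b ∉ Z2 → ∀ u ∈ [1, U42.zz], ∀ v ∈ [1, U42.zz],
      ∃ s ∈ [xc, xc * x0, xc * x1, xc * x0 * x1], s ∈ AA ∧ s ∉ QQ ∧
        xc * a * xc⁻¹ * u = s * a * s⁻¹ ∧ xc * b * xc⁻¹ * v = s * b * s⁻¹ := by decide +kernel
  have k2 : ∀ s ∈ AA, ∀ y ∈ Z2, s * y * s⁻¹ = y := by decide +kernel
  have hl : ∀ w ∈ Z1, w ∈ [1, U42.zz] := by decide +kernel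
  have h1 : t1 ∈ QQ := by decide
  have h2 : t2 ∈ QQ := by decide
  obtain ⟨s, -, hs, hs', e1, e2⟩ := key _ (h.mem _ h1) (h.nZ2 hZ h1 (by decide)) _ (h.mem _ h2)
    (h.nZ2 hZ h2 (by decide)) (by
      rw [← h.hom.map_mul h1 h2]; exact h.nZ2 hZ (mul_mem h1 h2) (by decide))
    _ (hl _ (h.step hZ h1 (by decide))) _ (hl _ (h.step hZ h2 (by decide)))
  rw [mul_inv_cancel_left] at e1 e2
  have hA : IsHomOn QQ fun x => f (xc * x * xc⁻¹) :=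
    h.hom.comp (isHomOn_conj QQ xc) fun x hx => Normal.conj_mem inferInstance x hx xc
  have hB : IsHomOn QQ fun x => s * f x * s⁻¹ := (isHomOn_conj QQ s).comp h.hom h.mem
  refine ⟨s, hs, hs', fun x hx => ((hA.mem_eqSub hB).1 (gen_QQ ((hA.mem_eqSub hB).2 ⟨h1, e1⟩)
    ((hA.mem_eqSub hB).2 ⟨h2, e2⟩) (fun y hy => (hA.mem_eqSub hB).2 ⟨Z2_le hy, ?_⟩) hx)).2⟩
  show f (xc * y * xc⁻¹) = s * f y * s⁻¹
  rw [k2 xc (by decide) y hy, k2 s hs _ (hZ y hy)]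

theorem ext_of (hF : F.IsSaturated 2) (hf : F.IsIso QQ QQ f) (hZ : ∀ x ∈ Z2, f x ∈ Z2) :
    ∃ h, F.IsIso ⊤ ⊤ h ∧ ∀ x ∈ QQ, f x = h x := by
  obtain ⟨s, -, -, hs⟩ := (au_iso hf).exists_conj hZ
  have hn : ∀ t, ∀ x ∈ QQ, t * x * t⁻¹ ∈ QQ := fun t x hx => Normal.conj_mem inferInstance x hx t
  obtain ⟨h, h1, h2⟩ := exists_ext isP hF hf.toMulEquiv_mem_autGroup fun t => by
    have key : ∀ t, t ∈ QQ ∨ xc⁻¹ * t ∈ QQ := by decide +kernel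
    rcases key t with ht | ht
    · exact ⟨f t, fun x hx => by
        rw [hf.equivFun_toMulEquiv (hn t x hx), hf.equivFun_toMulEquiv hx, hf.mor.map_conj ht hx]⟩
    · refine ⟨s * f (xc⁻¹ * t), fun x hx => ?_⟩
      rw [hf.equivFun_toMulEquiv (hn t x hx), hf.equivFun_toMulEquiv hx,
        show t * x * t⁻¹ = xc * (xc⁻¹ * t * x * (xc⁻¹ * t)⁻¹) * xc⁻¹ by group, hs _ (hn _ x hx),
        hf.mor.map_conj ht hx]
      group
  exact ⟨h, h1, fun x hx => by rw [h2 x hx, hf.equivFun_toMulEquiv hx]⟩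

theorem mor_n1 (hf : F.IsIso QQ QQ f) (h0 : n1 (f x0) ∈ Z2) (h1 : n1 (f x1) ∈ Z2) :
    F.IsMor QQ n1 := by
  have hg := au_n1.comp (au_iso hf)
  obtain ⟨s, hs, hs', e⟩ := hg.exists_conj (hg.mapZ2 h0 h1)
  have key : ∀ s ∈ AA, s ∉ QQ → ∃ r : UT, ∀ y ∈ QQ,
      n1 y = r * n1 (s * n1 (xc * y * xc⁻¹) * s⁻¹) * r⁻¹ := by decide +kernel
  have k2 : ∀ y ∈ QQ, n1 (n1 y) = y := by decide +kernel
  obtain ⟨r, hr⟩ := key s hs hs'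
  obtain ⟨g, hg1, -, hg2⟩ := hf.exists_symm
  have hc : ∀ t, F.IsIso QQ QQ fun x => t * x * t⁻¹ := fun t =>
    F.isIso_conj_of_mem_normalizer le_top trivial (by rw [normalizer_eq_top]; trivial)
  refine ((hc r).comp' (hf.comp' ((hc xc).comp' (hg1.comp' (hc xc))))).mor.congr fun y hy => ?_
  have hy' := (hc xc).mapsTo y hy
  have hy2 := hg1.mapsTo _ hy'
  rw [hr y hy, ← hg2 _ hy', ← e _ hy2, k2 _ (hf.mapsTo _ ((hc xc).mapsTo _ hy2)), hg2 _ hy']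

set_option synthInstance.maxSize 2048 in
theorem tri (hF : F.IsSaturated 2) (hf : F.IsIso QQ QQ f) : (f x0 ∈ Z2 ∧ f x1 ∈ Z2) ∨
    (n1 (f x0) ∈ Z2 ∧ n1 (f x1) ∈ Z2) ∨
    (n1 (xc⁻¹ * f x0 * xc⁻¹⁻¹) ∈ Z2 ∧ n1 (xc⁻¹ * f x1 * xc⁻¹⁻¹) ∈ Z2) := by
  have h := au_iso hf
  have key : ∀ c ∈ QQ, c * c = 1 → c ∉ Z1 → ∀ d ∈ QQ, d * d = 1 → d ∉ Z1 → c * d ∉ Z1 →
      c * d = d * c → ((c ∈ Z2 ∧ d ∈ Z2) ∨ (n1 c ∈ Z2 ∧ n1 d ∈ Z2) ∨
      (n1 (xc⁻¹ * c * xc⁻¹⁻¹) ∈ Z2 ∧ n1 (xc⁻¹ * d * xc⁻¹⁻¹) ∈ Z2)) ∨ (¬ (c ∈ AA ∧ d ∈ AA) ∧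
      ∀ y ∈ [c, d], ∃ w ∈ [c, d, c * d], (xc * y * xc⁻¹) = w ∨ (xc * y * xc⁻¹) = w * zz) := by
    decide +kernel
  have h0 : x0 ∈ QQ := by decide
  have h1 : x1 ∈ QQ := by decide
  refine (key _ (h.mem _ h0) (h.sq h0 (by decide)) (h.nZ1 h0 (by decide)) _ (h.mem _ h1)
    (h.sq h1 (by decide)) (h.nZ1 h1 (by decide))
    (by rw [← h.hom.map_mul h0 h1]; exact h.nZ1 (mul_mem h0 h1) (by decide))
    (by rw [← h.hom.map_mul h0 h1, ← h.hom.map_mul h1 h0]; rfl)).resolve_right fun ⟨hA, hN⟩ => hA ?_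
  have hi := hf.mor.isIso_img_of_le Z2_le
  have m0 : f x0 ∈ img Z2 f := mem_img_of_mem f (by decide)
  have m1 : f x1 ∈ img Z2 f := mem_img_of_mem f (by decide)
  have mz : zz ∈ img Z2 f := h.zz ▸ mem_img_of_mem f (by decide)
  have hxc : ∀ y ∈ [f x0, f x1], xc * y * xc⁻¹ ∈ img Z2 f := fun y hy => by
    obtain ⟨w, hw, e⟩ := hN y hy
    have : w ∈ img Z2 f := by
      simp only [List.mem_cons, List.not_mem_nil, or_false] at hw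
      rcases hw with rfl | rfl | rfl
      exacts [m0, m1, mul_mem m0 m1]
    rcases e with e | e <;> rw [e]
    exacts [this, mul_mem this mz]
  have hn : (⊤ : Subgroup UT) ≤ normalizer (img Z2 f : Set UT) := fun t _ => by
    have k1 : ∀ t, t ∈ QQ ∨ xc⁻¹ * t ∈ QQ := by decide +kernel
    have k2 : ∀ t ∈ QQ, ∀ y ∈ QQ, t * y * t⁻¹ = y ∨ t * y * t⁻¹ = y * zz := by decide +kernel
    have hq : ∀ t ∈ QQ, t ∈ normalizer (img Z2 f : Set UT) := fun t ht =>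
      mem_normalizer_of_finite fun y hy => by
        rcases k2 t ht y (img_le_iff.2 (fun x hx => h.mem x (Z2_le hx)) hy) with e | e <;> rw [e]
        exacts [hy, mul_mem hy mz]
    have hx : xc ∈ normalizer (img Z2 f : Set UT) := mem_normalizer_of_finite fun y hy => by
      obtain ⟨x, hx, rfl⟩ := hi.surj y hy
      have hB : IsHomOn QQ fun x => xc * f x * xc⁻¹ := (isHomOn_conj QQ xc).comp h.hom h.mem
      exact (hB.mem_preim.1 (gen_Z2 (K := hB.preim (img Z2 f))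
        (hB.mem_preim.2 ⟨h0, hxc _ (by simp)⟩) (hB.mem_preim.2 ⟨h1, hxc _ (by simp)⟩)
        (hB.mem_preim.2 ⟨by decide, by
          rw [h.zz, show xc * zz * xc⁻¹ = zz by decide]; exact mz⟩) hx)).2
    exact (k1 t).elim (hq t) fun ht => by simpa using mul_mem hx (hq _ ht)
  obtain ⟨g, hg, e⟩ := (hF.isReceptive isPT
    (F.isFullyNormalized_of_le_normalizer le_top hn)).exists_ext_centralizerIn hi
  have hA : AA ≤ Z2 ⊔ centralizerIn ⊤ Z2 := fun a ha => mem_sup_right (mem_centralizerIn'.2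
    ⟨trivial, (show ∀ a ∈ AA, ∀ y ∈ Z2, y * a = a * y by decide +kernel) a ha⟩)
  exact ⟨e x0 (by decide) ▸ map_AA hg hA x0 (by decide), e x1 (by decide) ▸ map_AA hg hA x1 (by decide)⟩

theorem cj_iso (hf : F.IsIso QQ QQ f) : F.IsIso QQ QQ fun x => xc⁻¹ * f x * xc⁻¹⁻¹ :=
  (F.isIso_conj_of_mem_normalizer le_top trivial
    (by rw [normalizer_eq_top]; trivial : xc⁻¹ ∈ normalizer (QQ : Set UT))).comp' hf

theorem ext_n1 (hF : F.IsSaturated 2) (hf : F.IsIso QQ QQ f) (h0 : n1 (f x0) ∈ Z2)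
    (h1 : n1 (f x1) ∈ Z2) : ∃ h, F.IsIso ⊤ ⊤ h ∧ ∀ x ∈ QQ, f x = n1 (h x) := by
  have k2 : ∀ y ∈ QQ, n1 (n1 y) = y := by decide +kernel
  obtain ⟨h, e1, e2⟩ := ext_of hF (((mor_n1 hf h0 h1).isIso_self au_n1.mem).comp' hf)
    ((au_n1.comp (au_iso hf)).mapZ2 h0 h1)
  exact ⟨h, e1, fun x hx => by rw [← e2 x hx, k2 _ (hf.mapsTo x hx)]⟩

end QA

open QA

theorem map_QQ (hf : F.IsIso ⊤ ⊤ f) : ∀ x ∈ QQ, f x ∈ QQ := by
  have hh := hf.mor.isHomOn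
  obtain ⟨g, hg, e, -⟩ := hf.exists_symm
  have k1 : ∀ y : UT, y * y = 1 → y ∉ AA → y ∈ QQ := by decide +kernel
  have k2 : ∀ y : UT, y * y ∈ QQ := by decide +kernel
  have ht : ∀ t : UT, t * t = 1 → t ∉ AA → t ∈ hh.preim QQ := fun t h1 h2 => hh.mem_preim.2
    ⟨trivial, k1 _ (by rw [← hh.map_mul trivial trivial, h1, hh.map_one])
      fun h3 => h2 (e t trivial ▸ map_AA hg.mor le_top _ h3)⟩
  have hs : ∀ t : UT, t * t ∈ hh.preim QQ := fun t => hh.mem_preim.2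
    ⟨trivial, by rw [hh.map_mul trivial trivial]; exact k2 _⟩
  have k3 : ∀ x ∈ Z2, ∃ s ∈ [1, t1 * xc, t2 * xc, t1 * t2 * xc], ∃ r ∈ [1, t1 * x1],
      x = s * s * (r * r) := by decide +kernel
  exact fun x hx => (hh.mem_preim.1 (gen_QQ (ht t1 (by decide) (by decide))
    (ht t2 (by decide) (by decide)) (fun y hy => by
      obtain ⟨s, -, r, -, rfl⟩ := k3 y hy
      exact mul_mem (hs s) (hs r)) hx)).2

theorem q_n (hF : F.IsSaturated 2) (hE : F.IsEssential 2 QQ) : F.IsMor QQ n1 := by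
  obtain ⟨M, h⟩ := exists_loc isP hF hE
  obtain ⟨g, hg, hb⟩ := h.data.exists_not_mem
  have hi := isIso_of_mem_autGroup le_top hg
  rcases tri hF hi with ⟨h0, h1⟩ | ⟨h0, h1⟩ | ⟨h0, h1⟩
  · refine absurd (h.chain hg hb (ch3_mono (A := Z1) (B := Z2) (show ∀ x ∈ Z1, x ∈ Z2 by decide +kernel))
      rfl (n := 3) rfl (fun i => match i with
        | 0 => Inv.bot
        | 1 => fun x _ hx => by
          rcases (Z1_iff x).1 hx with rfl | rfl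
          · rw [ef_one]; exact one_mem _
          · rw [(au_iso hi).zz]; exact hx
        | 2 => fun x _ hx => (au_iso hi).mapZ2 h0 h1 x hx
        | _ + 3 => Inv.top) (t := xc) (by rw [normalizer_eq_top]; trivial) fun i x hx hx' => ?_)
      (by decide)
    exact match i, hx' with
      | 0, hx' => mem_bot.2 ((show ∀ x ∈ Z1, x⁻¹ * (xc * x * xc⁻¹) = 1 by decide +kernel) x hx')
      | 1, hx' => (show ∀ x ∈ Z2, x⁻¹ * (xc * x * xc⁻¹) ∈ Z1 by decide +kernel) x hx'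
      | 2, _ => (show ∀ x, x⁻¹ * (xc * x * xc⁻¹) ∈ Z2 by decide +kernel) x
      | _ + 3, _ => trivial
  · exact mor_n1 hi h0 h1
  · exact mor_n1 (cj_iso hi) h0 h1

theorem q_gen (hF : F.IsSaturated 2) (hf : F.IsIso QQ QQ f) : ∃ h, F.IsIso ⊤ ⊤ h ∧
    ((∀ x ∈ QQ, f x = h x) ∨ (∀ x ∈ QQ, f x = n1 (h x)) ∨
      ∀ x ∈ QQ, f x = xc * n1 (h x) * xc⁻¹) := by
  rcases tri hF hf with ⟨h0, h1⟩ | ⟨h0, h1⟩ | ⟨h0, h1⟩
  · obtain ⟨h, e1, e2⟩ := ext_of hF hf ((au_iso hf).mapZ2 h0 h1)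
    exact ⟨h, e1, Or.inl e2⟩
  · obtain ⟨h, e1, e2⟩ := ext_n1 hF hf h0 h1
    exact ⟨h, e1, Or.inr (Or.inl e2)⟩
  · obtain ⟨h, e1, e2⟩ := ext_n1 hF (cj_iso hf) h0 h1
    exact ⟨h, e1, Or.inr (Or.inr fun x hx => by rw [← e2 x hx]; group)⟩

end Cfsg.Agent.U42
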