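import Cfsg.Agent.Lib.U42.Sl
import Cfsg.Agent.Lib.U42.QQ
import Cfsg.Agent.Lib.U42.Mod
import Cfsg.Agent.Lib.U5.Main

/-!
# S5210, `q = 2`: every saturated fusion system on `UT₄(2)` is realizable
-/

set_option autoImplicit false

namespace Cfsg.Agent.U42

open Subgroup Cfsg Cfsg.FusionSystem Cfsg.Agent.U5

variable {F E : FusionSystem (⊤ : Subgroup UT)} {P : Subgroup UT} {f g : UT → UT}

theorem real_of_normal (hF : F.IsSaturated 2) {N : Subgroup UT}
    (h : ∀ P, P = ⊤ ∨ F.IsEssential 2 P → N ≤ P ∧ ∀ f, F.IsIso P P f → ∀ x ∈ N, f x ∈ N)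
    (hc : ∀ x, (∀ y ∈ N, y * x = x * y) → x ∈ N) : F.IsRealizable 2 := by
  obtain ⟨G, _, ι, h1, h2, h3, -⟩ := Lead.exists_model_of_normal_centric isPT hF
    (hF.isNormal_of_essential isPT h) fun x hx => hc x (mem_centralizerIn'.1 hx).2
  exact ⟨G, _, h1, ι, h2, h3⟩

theorem le_AA (h : P = ⊤ ∨ F.IsEssential 2 P) (hF : F.IsSaturated 2) : AA ≤ P ∨ P = QQ :=
  h.elim (fun h => .inl (h ▸ le_top)) (ess_cases hF)

theorem real_A (hF : F.IsSaturated 2) (h : ¬ F.IsEssential 2 QQ) : F.IsRealizable 2 :=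
  real_of_normal hF (N := AA) (fun P hP =>
    have : AA ≤ P := hP.elim (fun h => h ▸ le_top) fun hP =>
      (ess_cases hF hP).resolve_right fun e => h (e ▸ hP)
    ⟨this, fun _ hf => map_AA hf.mor this⟩) (by decide +kernel)

theorem sylA (hF : F.IsSaturated 2) : H7.SylowIn 2 (autInducedBy ⊤ AA) (F.autGroup AA) :=
  hF.sylowIn isPT (F.isFullyNormalized_of_le_normalizer le_top fun t _ => mem_norm t)

theorem has_iff (h : Lin f) : Has (F.autGroup AA) f ↔ F.IsMor AA f :=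
  ⟨fun ⟨_, a, b⟩ => (isMor_of_mem_autGroup le_top a).congr b,
    fun a => (a.isIso_self fun x hx => (h x hx).1).exists_aut⟩

/-- the restriction to `AA` -/
theorem res (hP : AA ≤ P) (hf : F.IsMor P f) :
    ∃ γ ∈ F.autGroup AA, ∀ x ∈ AA, equivFun γ x = f x :=
  ((hf.mono hP).isIso_self (map_AA hf hP)).exists_aut

theorem inv_res (hP : AA ≤ P) (hf : F.IsMor P f) {C : Subgroup UT} (hC : C ≤ AA)
    (h : ∀ γ ∈ F.autGroup AA, Inv γ C) : ∀ x ∈ C, f x ∈ C := fun x hx =>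
  let ⟨γ, a, b⟩ := res hP hf; b x (hC hx) ▸ h γ a x (hC hx) hx

theorem mem_of_chain (hF : F.IsSaturated 2) (hE : F.IsEssential 2 P) (hP : AA ≤ P)
    {C D : Subgroup UT} (hC : C ≤ D) (hD : D ≤ AA) (h1 : ∀ γ ∈ F.autGroup AA, Inv γ C)
    (h2 : ∀ γ ∈ F.autGroup AA, Inv γ D) {t : UT} (h3 : ∀ x ∈ C, x * t = t * x)
    (h4 : ∀ x ∈ D, x⁻¹ * (t * x * t⁻¹) ∈ C) (h5 : ∀ x, x⁻¹ * (t * x * t⁻¹) ∈ D) : t ∈ P := by
  obtain ⟨M, h⟩ := exists_loc isP hF hE
  obtain ⟨g, hg, hb⟩ := h.data.exists_not_mem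
  have hm := isMor_of_mem_autGroup le_top hg
  exact h.chain hg hb (ch3_mono hC) rfl (n := 3) rfl
    (fun i => match i with
      | 0 => Inv.bot
      | 1 => fun x _ => inv_res hP hm (hC.trans hD) h1 x
      | 2 => fun x _ => inv_res hP hm hD h2 x
      | _ + 3 => Inv.top)
    (mem_norm_of_cm fun x _ => hP (hD (h5 x))) fun i x _ hx => match i, hx with
      | 0, hx => cm_eq_one (h3 x hx)
      | 1, hx => h4 x hx
      | 2, _ => h5 x
      | _ + 3, _ => trivial

theorem real_Q (hF : F.IsSaturated 2) (h : ∀ γ ∈ F.autGroup AA, Inv γ Z1 ∧ Inv γ Z2) :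
    F.IsRealizable 2 := by
  refine real_of_normal hF (N := QQ) ?_ (by decide +kernel)
  rintro P (rfl | hP)
  · exact ⟨le_top, fun f => map_QQ⟩
  rcases ess_cases hF hP with h1 | rfl
  · refine absurd (eq_top_iff.2 fun t _ => mem_of_chain hF hP h1 (C := Z1) (D := Z2)
      (by decide +kernel : ∀ x ∈ Z1, x ∈ Z2) (by decide +kernel : ∀ x ∈ Z2, x ∈ AA)
      (fun γ a => (h γ a).1) (fun γ a => (h γ a).2) ?_ ?_ ?_) (hP.lt hF isPT).ne <;>
      (clear * -; revert t; decide +kernel)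
  · exact ⟨le_rfl, fun g hg => hg.mapsTo⟩

theorem real_E (hF : F.IsSaturated 2) (h : ∀ γ ∈ F.autGroup AA, Inv γ CC) :
    F.IsRealizable 2 := by
  have hC : CC ≤ AA := (by decide +kernel : ∀ x ∈ CC, x ∈ AA)
  have key : ∀ P, AA ≤ P → t1 ∈ P → EE ≤ P ∧ ∀ f, F.IsIso P P f → ∀ x ∈ EE, f x ∈ EE :=
    fun P h1 h2 => by
      have h3 : EE ≤ P := fun x hx => by
        rcases (by decide +kernel : ∀ x ∈ EE, x ∈ AA ∨ t1⁻¹ * x ∈ AA) x hx with e | e
        exacts [h1 e, (mul_mem_cancel_left (inv_mem h2)).1 (h1 e)]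
      refine ⟨h3, fun f hf x hx => ?_⟩
      have h4 := inv_res h1 hf.mor hC h
      have hm := hf.mor.isHomOn
      have a0 := h1 (show x0 ∈ AA from rfl)
      have az := h1 (show zz ∈ AA from rfl)
      refine (by decide +kernel : ∀ y : UT, y * y = 1 → ∀ u ∈ CC, ∀ v ∈ CC, u ≠ 1 → v ≠ 1 → u ≠ v →
        u * y = y * u → v * y = y * v → y ∈ CC ∨ y ∉ AA → y ∈ EE) _ ?_ _ (h4 x0 rfl) _ (h4 zz rfl)
        (fun e => absurd (hf.mor.injOn a0 (one_mem _) (e.trans hm.map_one.symm)) (by decide))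
        (fun e => absurd (hf.mor.injOn az (one_mem _) (e.trans hm.map_one.symm)) (by decide))
        (fun e => absurd (hf.mor.injOn a0 az e) (by decide)) ?_ ?_ ?_
      · rw [← hm.map_mul (h3 hx) (h3 hx), (by decide +kernel : ∀ x ∈ EE, x * x = 1) x hx, hm.map_one]
      · rw [← hm.map_mul a0 (h3 hx), ← hm.map_mul (h3 hx) a0,
          (by decide +kernel : ∀ x ∈ EE, x0 * x = x * x0) x hx]
      · rw [← hm.map_mul az (h3 hx), ← hm.map_mul (h3 hx) az,
          (by decide +kernel : ∀ x ∈ EE, zz * x = x * zz) x hx]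
      · by_cases e : x ∈ AA
        · exact .inl (h4 x ((by decide +kernel : ∀ x ∈ EE, x ∈ AA → x ∈ CC) x hx e))
        refine .inr fun e' => e ?_
        obtain ⟨γ, -, b⟩ := res h1 hf.mor
        rw [hf.mor.injOn (h3 hx) (h1 (equivFun_mem γ⁻¹ e'))
          (by rw [← b _ (equivFun_mem γ⁻¹ e'), equivFun_apply_inv _ e'])]
        exact equivFun_mem _ e'
  refine real_of_normal hF (N := EE) ?_ (by decide +kernel)
  rintro P (rfl | hP)
  · exact key _ le_top trivial
  rcases ess_cases hF hP with h1 | rfl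
  · exact key _ h1 (mem_of_chain hF hP h1 hC le_rfl h (fun _ _ => Inv.of_le le_rfl)
      (by decide +kernel) (by decide +kernel) (by decide +kernel))
  have h1 : EE ≤ QQ := (by decide +kernel : ∀ x ∈ EE, x ∈ QQ)
  have h2 : ∀ x ∈ EE, n1 x ∈ EE := by decide +kernel
  refine ⟨h1, fun f hf x hx => ?_⟩
  obtain ⟨k, hk, e | e | e⟩ := q_gen hF hf <;> rw [e x (h1 hx)] <;>
    have := (key _ le_top trivial).2 k hk x hx
  exacts [this, h2 _ this, Normal.conj_mem inferInstance _ (h2 _ this) _]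

theorem le_of_AA (hF : F.IsSaturated 2) (hE : E.IsSaturated 2)
    (h : F.autGroup AA ≤ E.autGroup AA) (hn : E.IsMor QQ n1) : F ≤ E := by
  have key : ∀ P f, AA ≤ P → F.IsMor P f → E.IsMor P f := fun P f hP hf =>
    let ⟨_, a, b⟩ := res hP hf
    ext_AA hE hP hf ((isMor_of_mem_autGroup le_top (h a)).congr b)
  refine le_iff_isSubsystemOf.2 (hF.isSubsystemOf_of_essential isPT fun P hP f hf => ?_)
  rcases le_AA hP hF with h1 | rfl
  · exact key P f h1 hf.mor
  obtain ⟨k, hk, e⟩ := q_gen hF hf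
  have h1 := (key _ k le_top hk.mor).mono (le_top (a := QQ))
  have h2 := hn.comp' h1 (map_QQ hk)
  rcases e with e | e | e
  · exact h1.congr fun x hx => (e x hx).symm
  · exact h2.congr fun x hx => (e x hx).symm
  · exact ((E.isMor_conj le_rfl (mem_top xc)).comp' h2 fun _ _ => trivial).congr
      fun x hx => (e x hx).symm

/-- All systems containing `g` are realizable. -/
def RR (g : UT → UT) : Prop :=
  ∀ F : FusionSystem (⊤ : Subgroup UT), F.IsSaturated 2 → F.IsMor AA g → F.IsRealizable 2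

theorem rr_of_mod (hg : g = g1 ∨ g = n2) {G : Type*} [Group G] [Finite G] {ι : UT →* G}
    (hM : Mod g ι) : RR g := fun F hF hm => by
  by_cases hQ : F.IsEssential 2 QQ; swap
  · exact real_A hF hQ
  have hn := q_n hF hQ
  obtain ⟨hι, hS, ⟨g1, e1⟩, g2, e2⟩ := hM
  let ι' : (⊤ : Subgroup UT) →* G := ι.comp (Subgroup.subtype ⊤)
  have hr : ι'.range = ι.range := by rw [MonoidHom.range_comp, range_subtype, ← MonoidHom.range_eq_map]
  have he : ∀ x, homFun ι' x = ι x := fun x => homFun_of_mem _ (mem_top x)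
  obtain ⟨s, hs'⟩ := exists_grpIso_of_injective (ι := ι') (hι.comp Subtype.val_injective)
  obtain ⟨E, hE⟩ := (groupFusionSystem ι'.range).exists_isoVia hs'.symm
  have hR : E.IsRealizedBy ι' := hE.symm.isRealizedBy
  have hEs : E.IsSaturated 2 := hR.isSaturated (hr ▸ hS)
  have mor : ∀ {P : Subgroup UT} {f : UT → UT} (g : G), IsHomOn P f →
      (∀ x ∈ P, ι (f x) = g * ι x * g⁻¹) → E.IsMor P f := fun {P f} g h e =>
    hR.isMor_iff.2 ⟨le_top, h, fun _ _ => trivial, g, fun x hx => by rw [he, he, e x hx]⟩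
  have h0 : Lin g := by rcases hg with rfl | rfl <;> decide +kernel
  have a1 := (has_iff h0).2 hm
  have a2 := (has_iff h0).2 (mor g2 hm.isHomOn e2)
  have : E = F := le_antisymm'
    (le_of_AA hEs hF (le_of_has (sylA hEs) hg a2 (sylA hF).le a1) hn)
    (le_of_AA hF hEs (le_of_has (sylA hF) hg a1 (sylA hEs).le a2) (mor g1 hn.isHomOn e1))
  obtain ⟨T, hT⟩ := H7.sylowIn_top_iff.1 hS
  exact GL.isRealizable_of (this ▸ hR) T (hT.trans hr.symm)

theorem RR.cn (h : RR g) : RR (cn g) := fun F hF hm => by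
  have hi : GrpIso (⊤ : Subgroup UT) ⊤ nui nu :=
    ⟨fun x _ y _ => (by decide +kernel : ∀ x y, nui (x * y) = nui x * nui y) x y,
      fun x _ y _ => (by decide +kernel : ∀ x y, nu (x * y) = nu x * nu y) x y,
      fun _ _ => trivial, fun _ _ => trivial, fun x _ => (by decide : ∀ x, nu (nui x) = x) x,
      fun x _ => (by decide : ∀ x, nui (nu x) = x) x⟩
  obtain ⟨E, hE⟩ := F.exists_isoVia hi
  refine isRealizable_of_isoVia hE (h E (hE.isSaturated hF) ?_)
  have := hE.isMor_of_induced hm (f' := g) fun x _ => (hi.right _ trivial).symm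
  rwa [show img AA nui = AA from Subgroup.ext fun y => by
    rw [hi.mem_img_iff le_top, and_iff_right (mem_top _)]; revert y; decide] at this

theorem RR.tg (h : RR g) : ∀ f ∈ tg g, RR f := by
  simp only [U42.tg, List.forall_mem_cons, List.not_mem_nil, false_imp_iff, implies_true, and_true]
  exact ⟨h, h.cn, h.cn.cn, h.cn.cn.cn, h.cn.cn.cn.cn, h.cn.cn.cn.cn.cn⟩

theorem real_of_has (hF : F.IsSaturated 2) {l : List (UT → UT)} (h : ∀ f ∈ l, RR f)
    (e : ∃ f ∈ l, Has (F.autGroup AA) f) : F.IsRealizable 2 :=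
  let ⟨f, hf, _, a, b⟩ := e; h f hf F hF ((isMor_of_mem_autGroup le_top a).congr b)

theorem rr_g1 : RR g1 := let ⟨_, _, _, _, h⟩ := mod_L; rr_of_mod (.inl rfl) h

theorem rr_rr : RR rr := fun F hF hm => by
  by_cases h : ∃ f ∈ tg g1, Has (F.autGroup AA) f
  · exact real_of_has hF rr_g1.tg h
  · exact real_E hF fun γ hγ =>
      (clsD (sylA hF) ((has_iff (by decide +kernel)).2 hm) hγ).resolve_right h

universe u

theorem realizable {K : Type u} [Field K] [StarRing K] [UF K] {p : ℕ} [hp : Fact p.Prime]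
    [CharP K p] {Ω : Type*} [Group Ω] {S : Subgroup Ω} {F : FusionSystem S}
    (hq : Nat.card K = 4) (hF : F.IsSaturated p) (e : S ≃* U4.US K) : F.IsRealizable p := by
  obtain ⟨h2, ⟨e'⟩, G, _, _, ι, hM⟩ := mod_U hq
  obtain rfl : p = 2 := (Nat.prime_dvd_prime_iff_eq hp.out Nat.prime_two).1
    ((CharP.cast_eq_zero_iff K p 2).1 (by exact_mod_cast h2))
  obtain ⟨E, hE⟩ := F.exists_isoVia (GrpIso.of_equiv ((e.trans e').trans topEquiv.symm))
  have hs := hE.isSaturated hF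
  refine isRealizable_of_isoVia hE ?_
  by_cases h : ∃ f ∈ tg rr ++ tg g1 ++ tg n2, Has (E.autGroup AA) f
  · exact real_of_has hs (List.forall_mem_append.2 ⟨List.forall_mem_append.2
      ⟨rr_rr.tg, rr_g1.tg⟩, (rr_of_mod (.inr rfl) hM).tg⟩) h
  · exact real_Q hs fun γ hγ => (clsA (sylA hs) hγ).resolve_right h

end Cfsg.Agent.U42
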