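import Cfsg.Agent.Lib.U42.Defs
import Cfsg.Agent.Lib.H8.J3a

/-!
# S5210, `q = 2`: computing with all `4 × 4` matrices over `𝔽₂` at once
-/

set_option autoImplicit false

namespace Cfsg.Agent.U42

open Subgroup Cfsg Cfsg.FusionSystem Cfsg.Agent.U5
open Cfsg.Agent.H8.J3 (frc frc_eq dm testBit_dm)

structure SV where
  c : ℕ
  e0 : ℕ
  e1 : ℕ
  f : ℕ

structure SM where
  p : SV
  q : SV
  r : SV
  s : SV

def den (i : ℕ) (v : SV) : UT :=
  ⟨false, false, v.c.testBit i, v.e0.testBit i, v.e1.testBit i, v.f.testBit i⟩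

def lin (p q r s x : UT) : UT :=
  cond x.c p 1 * (cond x.e0 q 1 * (cond x.e1 r 1 * cond x.f s 1))

def act (i : ℕ) (M : SM) : UT → UT := lin (den i M.p) (den i M.q) (den i M.r) (den i M.s)

def dt (v : SV) (a b c d : ℕ) : ℕ :=
  (v.c.land a).xor ((v.e0.land b).xor ((v.e1.land c).xor (v.f.land d)))

def ap (M : SM) (v : SV) : SV :=
  ⟨dt v M.p.c M.q.c M.r.c M.s.c, dt v M.p.e0 M.q.e0 M.r.e0 M.s.e0,
    dt v M.p.e1 M.q.e1 M.r.e1 M.s.e1, dt v M.p.f M.q.f M.r.f M.s.f⟩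

def ml (M N : SM) : SM := ⟨ap M N.p, ap M N.q, ap M N.r, ap M N.s⟩

def cv (O : ℕ) (x : UT) : SV := ⟨cond x.c O 0, cond x.e0 O 0, cond x.e1 O 0, cond x.f O 0⟩

def cm (O : ℕ) (f : UT → UT) : SM := ⟨cv O (f xc), cv O (f x0), cv O (f x1), cv O (f zz)⟩

def neq (v w : SV) : ℕ :=
  (v.c.xor w.c).lor ((v.e0.xor w.e0).lor ((v.e1.xor w.e1).lor (v.f.xor w.f)))

def neqM (M N : SM) : ℕ := (neq M.p N.p).lor ((neq M.q N.q).lor ((neq M.r N.r).lor (neq M.s N.s)))

section force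
variable {α : Type}

noncomputable def fV (v : SV) (k : SV → α) : α :=
  frc v.c fun a => frc v.e0 fun b => frc v.e1 fun c => frc v.f fun d => k ⟨a, b, c, d⟩

@[simp] theorem fV_eq (v : SV) (k : SV → α) : fV v k = k v := by simp only [fV, frc_eq]

noncomputable def fM (M : SM) (k : SM → α) : α :=
  fV M.p fun a => fV M.q fun b => fV M.r fun c => fV M.s fun d => k ⟨a, b, c, d⟩

@[simp] theorem fM_eq (M : SM) (k : SM → α) : fM M k = k M := by simp only [fM, fV_eq]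

noncomputable def fL {β : Type} (F : β → (β → α) → α) (l : List β) : (List β → α) → α :=
  List.rec (fun k => k []) (fun a _ ih k => F a fun a => ih fun t => k (a :: t)) l

theorem fL_eq {β : Type} {F : β → (β → α) → α} (h : ∀ a k, F a k = k a) (l : List β)
    (k : List β → α) : fL F l k = k l := by
  induction l generalizing k with
  | nil => rfl
  | cons a l ih => exact (h _ _).trans (ih _)

def val (L : List SM) (I : SM) (w : List ℕ) : SM := w.foldr (fun l M => ml (L.getD l I) M) I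

noncomputable def evW (L : List SM) (I : SM) (w : List ℕ) : (SM → α) → α :=
  List.rec (fun k => k I) (fun l _ ih k => ih fun M => fM (ml (L.getD l I) M) k) w

@[simp] theorem evW_eq (L : List SM) (I : SM) (w : List ℕ) (k : SM → α) :
    evW L I w k = k (val L I w) := by
  induction w generalizing k with
  | nil => rfl
  | cons a l ih => exact (ih _).trans (fM_eq _ _)

end force

noncomputable def orL {β : Type} (f : β → ℕ) (l : List β) : ℕ :=
  List.rec 0 (fun a _ ih => frc (f a) fun b => b.lor ih) l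

theorem testBit_orL {β : Type} {f : β → ℕ} {l : List β} {i : ℕ} :
    (orL f l).testBit i = true ↔ ∃ a ∈ l, (f a).testBit i = true := by
  induction l with
  | nil => simp [orL]
  | cons a l ih =>
    change Nat.testBit (frc (f a) fun b => b ||| orL f l) i = true ↔ _
    rw [frc_eq, Nat.testBit_or, Bool.or_eq_true, ih]; simp

def pt (i : ℕ) : UT := ⟨false, false, i.testBit 0, i.testBit 1, i.testBit 2, i.testBit 3⟩

/-- the fixed space has index at least four -/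
noncomputable def viol (O : ℕ) (M : SM) : ℕ :=
  fL frc ((List.range 16).map fun j => neq (ap M (cv O (pt j))) (cv O (pt j))) fun N =>
    orL (fun j => orL (fun k => ((N.getD j 0).land (N.getD k 0)).land (N.getD (j.xor k) 0))
      (List.range j)) (List.range 16)

/-- an element of order four or a transvection -/
noncomputable def bad (O : ℕ) (I M : SM) : ℕ :=
  fM (ml M M) fun M2 => frc (neqM M2 I) fun n => fM (ml M2 M2) fun M4 =>
    (n.land (O.xor (neqM M4 I))).lor (((O.xor n).land (neqM M I)).land (O.xor (viol O M)))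

noncomputable def sing (O : ℕ) (M : SM) : ℕ :=
  orL (fun j => O.xor (neq (ap M (cv O (pt (j + 1)))) (cv O 1))) (List.range 15)

noncomputable def X0 (k : ℕ) : SV := ⟨dm 2 k 1 16, dm 2 (k + 1) 1 16, dm 2 (k + 2) 1 16, dm 2 (k + 3) 1 16⟩

noncomputable def chk (Ks : List (UT → UT)) (ws : List (List ℕ)) (R : ℕ → SM → List SM → ℕ) :
    Bool :=
  frc (2 ^ 2 ^ 16 - 1) fun O => fM ⟨X0 0, X0 4, X0 8, X0 12⟩ fun X => fM (cm O id) fun I =>
    fL fM (Ks.map (cm O)) fun K => Nat.beq ((sing O X).lor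
      ((orL (fun w => evW (X :: K) I w (bad O I)) ws).lor (R O X K))) O

/-- one of the words is one of the matrices -/
noncomputable def hit (O : ℕ) (L : List SM) (ws : List (List ℕ)) (B : List SM) : ℕ :=
  fM (cm O id) fun I => fL fM B fun B =>
    orL (fun w => evW L I w fun M => orL (fun b => O.xor (neqM M b)) B) ws

section sound

variable {i O : ℕ} {M N : SM} {v w : SV} {γ δ : MulAut AA} {G : Subgroup (MulAut AA)}
  {f : UT → UT}

theorem den_mem (i : ℕ) (v : SV) : den i v ∈ AA := rfl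

theorem den_ap (i : ℕ) (M : SM) (v : SV) : den i (ap M v) = act i M (den i v) := by
  have e1 : ∀ a b : ℕ, a.land b = a &&& b := fun _ _ => rfl
  have e2 : ∀ a b : ℕ, a.xor b = a ^^^ b := fun _ _ => rfl
  simp only [den, ap, dt, act, lin, e1, e2, Nat.testBit_xor, Nat.testBit_and]
  cases v.c.testBit i <;> cases v.e0.testBit i <;> cases v.e1.testBit i <;> cases v.f.testBit i <;>
    (simp [mul_def, re]; try rfl)

theorem den_cv (h : O.testBit i = true) {x : UT} (hx : x ∈ AA) : den i (cv O x) = x := by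
  have : ∀ b, (cond b O 0).testBit i = b := fun b => by cases b <;> simp [h]
  simp only [den, cv, this]
  revert x; decide

theorem neq_iff : (neq v w).testBit i = false ↔ den i v = den i w := by
  simp [neq, den]

theorem tb_lor (a b i : ℕ) : (a.lor b).testBit i = (a.testBit i || b.testBit i) := Nat.testBit_or ..
theorem tb_land (a b i : ℕ) : (a.land b).testBit i = (a.testBit i && b.testBit i) :=
  Nat.testBit_and ..
theorem tb_not (h : O.testBit i = true) (b : ℕ) : (O.xor b).testBit i = !b.testBit i :=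
  (Nat.testBit_xor ..).trans (by rw [h]; simp)

theorem neqM_iff : (neqM M N).testBit i = false ↔ act i M = act i N := by
  simp only [neqM, tb_lor, Bool.or_eq_false_iff, neq_iff]
  refine ⟨fun ⟨a, b, c, d⟩ => by rw [act, a, b, c, d, act], fun h => ⟨?_, ?_, ?_, ?_⟩⟩
  · simpa [act, lin, xc] using congrFun h xc
  · simpa [act, lin, x0] using congrFun h x0
  · simpa [act, lin, x1] using congrFun h x1
  · simpa [act, lin, zz] using congrFun h zz

/-- the slice of `M` is the matrix of `γ` -/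
def Rep (i : ℕ) (M : SM) (γ : MulAut AA) : Prop := ∀ x ∈ AA, equivFun γ x = act i M x

theorem ef_lin (γ : MulAut AA) {p q r s : UT} (hp : p ∈ AA) (hq : q ∈ AA) (hr : r ∈ AA)
    (hs : s ∈ AA) (x : UT) : equivFun γ (lin p q r s x) =
      lin (equivFun γ p) (equivFun γ q) (equivFun γ r) (equivFun γ s) x := by
  have a : ∀ (b : Bool) {p}, p ∈ AA → cond b p 1 ∈ AA := fun b _ h => by
    cases b; exacts [one_mem _, h]
  have c : ∀ (b : Bool) p, equivFun γ (cond b p 1) = cond b (equivFun γ p) 1 := fun b _ => by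
    cases b; exacts [ef_one γ, rfl]
  rw [lin, ef_mul _ (a _ hp) (mul_mem (a _ hq) (mul_mem (a _ hr) (a _ hs))),
    ef_mul _ (a _ hq) (mul_mem (a _ hr) (a _ hs)), ef_mul _ (a _ hr) (a _ hs), c, c, c, c, lin]

theorem Rep.ml (h : Rep i M γ) (h' : Rep i N δ) : Rep i (ml M N) (γ * δ) := fun x hx => by
  rw [equivFun_mul _ _ hx, h' x hx, act, ef_lin _ (den_mem ..) (den_mem ..) (den_mem ..) (den_mem ..)]
  simp only [h _ (den_mem ..), ← den_ap]; rfl

theorem Rep.neq (h : Rep i M γ) (h' : Rep i N δ) : (neqM M N).testBit i = false ↔ γ = δ := by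
  refine ⟨fun e => mulEquiv_ext_equivFun fun x hx => by rw [h x hx, h' x hx, neqM_iff.1 e], ?_⟩
  rintro rfl
  have : ∀ x ∈ AA, act i M x = act i N x := fun x hx => by rw [← h x hx, h' x hx]
  simp only [neqM, tb_lor, Bool.or_eq_false_iff, neq_iff]
  exact ⟨by simpa [act, lin, xc] using this xc rfl, by simpa [act, lin, x0] using this x0 rfl,
    by simpa [act, lin, x1] using this x1 rfl, by simpa [act, lin, zz] using this zz rfl⟩

/-- `f` is an endomorphism of `AA` -/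
def Lin (f : UT → UT) : Prop := ∀ x ∈ AA, f x ∈ AA ∧ lin (f xc) (f x0) (f x1) (f zz) x = f x

instance (f : UT → UT) : Decidable (Lin f) := inferInstanceAs (Decidable (∀ _, _))

theorem act_cm (h : O.testBit i = true) (hf : Lin f) {x : UT} (hx : x ∈ AA) :
    act i (cm O f) x = f x := by
  simp only [act, cm, den_cv h (hf xc rfl).1, den_cv h (hf x0 rfl).1, den_cv h (hf x1 rfl).1,
    den_cv h (hf zz rfl).1, (hf x hx).2]

theorem rep_one (h : O.testBit i = true) : Rep i (cm O id) 1 := fun x hx => by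
  rw [act_cm h (by decide +kernel) hx, equivFun_one hx]; rfl

/-- `G` contains the restriction of `f` -/
def Has (G : Subgroup (MulAut AA)) (f : UT → UT) : Prop := ∃ γ ∈ G, ∀ x ∈ AA, equivFun γ x = f x

def In (G : Subgroup (MulAut AA)) (i : ℕ) (M : SM) : Prop := ∃ γ ∈ G, Rep i M γ

theorem in_cm (h : O.testBit i = true) {Ks : List (UT → UT)} (hK : ∀ f ∈ Ks, Lin f ∧ Has G f) :
    ∀ M ∈ Ks.map (cm O), In G i M := fun M hM => by
  obtain ⟨f, hf, rfl⟩ := List.mem_map.1 hM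
  obtain ⟨a, γ, b, c⟩ := hK f hf
  exact ⟨γ, b, fun x hx => by rw [act_cm h a hx, c x hx]⟩

theorem in_val (h : O.testBit i = true) {L : List SM} (hL : ∀ M ∈ L, In G i M) (w : List ℕ) :
    In G i (val L (cm O id) w) := by
  have h1 : In G i (cm O id) := ⟨1, one_mem _, rep_one h⟩
  induction w with
  | nil => exact h1
  | cons l w ih =>
    obtain ⟨δ, a, b⟩ := ih
    obtain ⟨γ, c, d⟩ : In G i (L.getD l (cm O id)) := by
      rw [List.getD_eq_getElem?_getD]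
      cases e : L[l]? with
      | none => exact h1
      | some M => exact hL M (List.mem_of_getElem? e)
    exact ⟨_, mul_mem c a, d.ml b⟩

theorem hit_sound (h : O.testBit i = true) {L B : List SM} {ws : List (List ℕ)}
    (hL : ∀ M ∈ L, In G i M) (e : (hit O L ws B).testBit i = true) : ∃ M ∈ B, In G i M := by
  simp only [hit, fM_eq, fL_eq fM_eq, testBit_orL, evW_eq, tb_not h, Bool.not_eq_true'] at e
  obtain ⟨w, -, M, hM, e⟩ := e
  obtain ⟨γ, a, b⟩ := in_val h hL w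
  exact ⟨M, hM, γ, a, fun x hx => by rw [b x hx, neqM_iff.1 e]⟩

theorem has_of_in (h : O.testBit i = true) {Ks : List (UT → UT)} (hK : ∀ f ∈ Ks, Lin f)
    (e : ∃ M ∈ Ks.map (cm O), In G i M) : ∃ f ∈ Ks, Has G f := by
  obtain ⟨_, hM, γ, a, b⟩ := e
  obtain ⟨f, hf, rfl⟩ := List.mem_map.1 hM
  exact ⟨f, hf, γ, a, fun x hx => by rw [b x hx, act_cm h (hK f hf) hx]⟩

theorem two_elt (hG : H7.SylowIn 2 (autInducedBy ⊤ AA) G) (hγ : γ ∈ G) (h : γ ^ 2 ^ 2 = 1) :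
    ∃ (δ : MulAut AA) (t : UT), δ * γ * δ⁻¹ = conjAut AA (mem_norm t) := by
  obtain ⟨δ, -, e⟩ := hG.exists_conj (H7.isPGroup_zpowers_of_pow h) (zpowers_le.2 hγ)
  obtain ⟨t, -, ht, e⟩ := H9.exists_eq_conjAut (e γ (mem_zpowers γ))
  exact ⟨δ, t, e⟩

theorem bad_sound (hG : H7.SylowIn 2 (autInducedBy ⊤ AA) G) (h : O.testBit i = true)
    (hM : In G i M) : ¬ (bad O (cm O id) M).testBit i = true := by
  obtain ⟨γ, hγ, r⟩ := hM
  have r2 := r.ml r
  simp only [bad, fM_eq, frc_eq, tb_lor, tb_land, tb_not h, Bool.or_eq_true, Bool.and_eq_true,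
    Bool.not_eq_true', r2.neq (rep_one h), (r2.ml r2).neq (rep_one h)]
  rw [← Bool.not_eq_false, ← Bool.not_eq_false (neqM M _ |>.testBit i), r2.neq (rep_one h),
    r.neq (rep_one h)]
  rintro (⟨a, b⟩ | ⟨⟨a, b⟩, c⟩)
  · obtain ⟨δ, t, e⟩ := two_elt hG hγ (by rw [← b, ← pow_two, ← pow_two, ← pow_mul]; rfl)
    refine a ((MulAut.conj δ).injective ?_)
    rw [map_mul, map_one, MulAut.conj_apply, e]
    refine mulEquiv_ext_equivFun fun x hx => ?_
    rw [equivFun_mul _ _ hx, equivFun_conjAut _ (equivFun_mem _ hx), equivFun_conjAut _ hx,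
      equivFun_one hx]
    clear e; revert t x; decide +kernel
  · obtain ⟨δ, t, e⟩ := two_elt hG hγ (by rw [pow_succ, pow_mul, pow_one, pow_two γ, a, one_pow])
    have k1 : ∀ j < 16, ∀ k < j, equivFun γ (pt j) = pt j ∨ equivFun γ (pt k) = pt k ∨
        equivFun γ (pt (j.xor k)) = pt (j.xor k) := fun j hj k hk => by
      rw [← Bool.not_eq_true] at c
      simp only [viol, fL_eq frc_eq, testBit_orL, List.mem_range, not_exists, not_and, tb_land,
        Bool.and_eq_true] at c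
      have g : ∀ j < 16, ((((List.range 16).map fun j =>
          neq (ap M (cv O (pt j))) (cv O (pt j))).getD j 0).testBit i = true ↔
            ¬ equivFun γ (pt j) = pt j) := fun j hj => by
        rw [List.getD_eq_getElem _ _ (by simpa using hj), List.getElem_map, List.getElem_range,
          ← Bool.not_eq_false, neq_iff, den_ap, den_cv h (x := pt j) rfl, r (pt j) rfl]
      have := c j hj k hk
      rw [g j hj, g k (hk.trans hj), g (j.xor k) (Nat.xor_lt_two_pow (n := 4) hj (hk.trans hj))] at this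
      tauto
    have k2 : ∀ x ∈ AA, ∀ y ∈ AA, equivFun γ x = x ∨ equivFun γ y = y ∨
        equivFun γ (x * y) = x * y := fun x hx y hy => by
      rcases (by decide +kernel : ∀ x ∈ AA, ∀ y ∈ AA, x * y = 1 ∨ ∃ j < 16, ∃ k < j,
        (x = pt j ∧ y = pt k ∨ y = pt j ∧ x = pt k) ∧ x * y = pt (j.xor k)) x hx y hy with
        e | ⟨j, hj, k, hk, ⟨e1, e2⟩ | ⟨e1, e2⟩, e⟩
      · rw [e, ef_one]; simp
      all_goals have := k1 j hj k hk; rw [← e1, ← e2, ← e] at this; tauto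
    have k3 : ∀ x ∈ AA, equivFun γ (equivFun δ⁻¹ x) = equivFun δ⁻¹ x → t * x * t⁻¹ = x :=
      fun x hx e' => by
        rw [← equivFun_conjAut (mem_norm t) hx, ← e, equivFun_mul _ _ hx,
          equivFun_mul _ _ (equivFun_mem _ hx), e', equivFun_apply_inv _ hx]
    have k4 : ∀ x ∈ AA, t * x * t⁻¹ = x := (by decide +kernel : ∀ t : UT, (∀ x ∈ AA, ∀ y ∈ AA,
      t * x * t⁻¹ = x ∨ t * y * t⁻¹ = y ∨ t * (x * y) * t⁻¹ = x * y) → ∀ x ∈ AA, t * x * t⁻¹ = x) t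
      fun x hx y hy => (k2 _ (equivFun_mem δ⁻¹ hx) _ (equivFun_mem δ⁻¹ hy)).imp (k3 x hx)
        (.imp (k3 y hy) fun e' => k3 _ (mul_mem hx hy) (by rwa [ef_mul _ hx hy]))
    refine b ((MulAut.conj δ).injective ?_)
    rw [map_one, MulAut.conj_apply, e]
    exact mulEquiv_ext_equivFun fun x hx => by rw [equivFun_conjAut _ hx, k4 x hx, equivFun_one hx]

theorem chk_sound (hG : H7.SylowIn 2 (autInducedBy ⊤ AA) G) {Ks : List (UT → UT)}
    (hK : ∀ f ∈ Ks, Lin f ∧ Has G f) {ws : List (List ℕ)} {R : ℕ → SM → List SM → ℕ}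
    (h : chk Ks ws R = true) (hγ : γ ∈ G) : ∃ i O X, O.testBit i = true ∧ Rep i X γ ∧
      (∀ M ∈ X :: Ks.map (cm O), In G i M) ∧ (R O X (Ks.map (cm O))).testBit i = true := by
  simp only [chk, frc_eq, fM_eq, fL_eq fM_eq, Nat.beq_eq] at h
  let bv : UT → ℕ → Bool := fun x k => [x.c, x.e0, x.e1, x.f].getD k false
  let i := Nat.ofBits fun k : Fin 16 => bv (equivFun γ ([xc, x0, x1, zz].getD (k / 4) 1)) (k % 4)
  have hi : i < 2 ^ 16 := Nat.ofBits_lt_two_pow _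
  have hO : (2 ^ 2 ^ 16 - 1).testBit i = true := by
    rw [Nat.testBit_two_pow_sub_one, decide_eq_true hi]
  have h1 : ∀ k < 16, (dm 2 k 1 16).testBit i =
      bv (equivFun γ ([xc, x0, x1, zz].getD (k / 4) 1)) (k % 4) := fun k hk => by
    rw [testBit_dm one_lt_two hk]
    refine Eq.trans ?_ (Nat.testBit_ofBits_lt (fun k : Fin 16 =>
      bv (equivFun γ ([xc, x0, x1, zz].getD (k / 4) 1)) (k % 4)) k hk)
    rw [Nat.testBit_eq_decide_div_mod_eq]
    simp only [hi, true_and]; rfl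
  have h2 : ∀ x ∈ AA, (⟨false, false, bv x 0, bv x 1, bv x 2, bv x 3⟩ : UT) = x := by decide
  have hX : Rep i ⟨X0 0, X0 4, X0 8, X0 12⟩ γ := fun x hx => by
    refine ((congrArg _ ((by decide +kernel : Lin id) x hx).2.symm).trans
      (ef_lin γ (p := xc) (q := x0) (r := x1) (s := zz) rfl rfl rfl rfl x)).trans ?_
    simp only [act, den, X0]
    rw [h1 0 (by decide), h1 (0 + 1) (by decide), h1 (0 + 2) (by decide), h1 (0 + 3) (by decide),
      h1 4 (by decide), h1 (4 + 1) (by decide), h1 (4 + 2) (by decide), h1 (4 + 3) (by decide),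
      h1 8 (by decide), h1 (8 + 1) (by decide), h1 (8 + 2) (by decide), h1 (8 + 3) (by decide),
      h1 12 (by decide), h1 (12 + 1) (by decide), h1 (12 + 2) (by decide), h1 (12 + 3) (by decide)]
    exact congrFun (congr (congr (congr (congrArg lin (h2 _ (equivFun_mem γ (x := xc) rfl)).symm)
      (h2 _ (equivFun_mem γ (x := x0) rfl)).symm) (h2 _ (equivFun_mem γ (x := x1) rfl)).symm)
      (h2 _ (equivFun_mem γ (x := zz) rfl)).symm) x
  have hL : ∀ M ∈ (⟨X0 0, X0 4, X0 8, X0 12⟩ : SM) :: Ks.map (cm (2 ^ 2 ^ 16 - 1)), In G i M :=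
    List.forall_mem_cons.2 ⟨⟨γ, hγ, hX⟩, in_cm hO hK⟩
  refine ⟨i, _, _, hO, hX, hL, ?_⟩
  have h3 := hO
  conv_lhs at h3 => rw [← h]
  simp only [tb_lor, Bool.or_eq_true, sing, testBit_orL, evW_eq, tb_not hO, Bool.not_eq_true',
    neq_iff, den_ap] at h3
  rcases h3 with ⟨j, hj, e⟩ | ⟨w, -, e⟩ | e
  · rw [den_cv hO (x := pt _) rfl, den_cv hO (one_mem _), ← hX (pt _) rfl] at e
    exact absurd (ef_eq_one γ (x := pt _) rfl e) ((by decide : ∀ j ∈ List.range 15, pt (j + 1) ≠ 1) j hj)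
  · exact absurd e (bad_sound hG hO (in_val hO hL w))
  · exact e

end sound

def cj (t x : UT) : UT := t * x * t⁻¹
def cn (f : UT → UT) (x : UT) : UT := nu (f (nui x))
def tg (f : UT → UT) : List (UT → UT) :=
  [f, cn f, cn (cn f), cn (cn (cn f)), cn (cn (cn (cn f))), cn (cn (cn (cn (cn f))))]
def KT : List (UT → UT) := [cj t1, cj t2, cj (t1 * t2)]

theorem chkA : chk KT
    [[0,0,1,0,0,0,1,0,0,0,1,0], [0,2,0,2,0,3,0,2,0,2,0,3,0,2,0,2,0,3], [0,0,2,0,0,2,0,0,2],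
    [0,3,0,3,0,0,3,0,3,0,0,3,0,3,0], [0,3,0,2,0,3,0,2,0,3,0,2], [0,1,0,1,0,1],
    [0,2,0,2,0,0,2,0,2,0,0,2,0,2,0], [0,1,0,2,0,1,0,1,0,2,0,1,0,1,0,2,0,1], [0,1,0,1,0,3], [0,2],
    [0,2,0,2,0,1,0,2,0,2,0,1,0,2,0,2,0,1], [0,3,0,1,0,3,0,3,0,0,3], [0,3,0,0,2,0,0,3,0]]
    (fun O X K => (O.xor (X.q.c.lor (X.r.c.lor (neq X.s (cv O zz))))).lor (hit O (X :: K)
      [[0], [0,1], [0,2], [0,3], [1,0], [1,0,1], [1,0,2], [1,0,3], [2,0], [2,0,1], [2,0,2], [2,0,3],
      [3,0], [3,0,1], [3,0,2], [3,0,3]]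
      ((tg rr ++ tg g1 ++ tg n2).map (cm O)))) = true := by decide +kernel

theorem chkD : chk (KT ++ [rr])
    [[0,4,0,0,0,4,0,0,0,4,0,0], [0,1,0,1,0,3,0,1,0,1,0,3,0,1,0,1,0,3],
    [0,4,0,2,0,3,0,4,0,2,0,3,0,4,0,2,0,3], [0,3,0,2,0,3,0,2,0,3,0,2],
    [0,2,0,2,0,0,2,0,2,0,0,2,0,2,0], [0,4,0,1,0,4,0,1,0,4,0,1], [0,3,0,3,0,0,3,0,3,0,0,3,0,3,0],
    [0,4,0,4,0,1,0,4,0,4,0,1,0,4,0,4,0,1], [0,0,2,0,4,0,0,2,0,4,0,0,2,0,4],
    [0,1,0,2,0,4,0,1,0,2,0,4,0,1,0,2,0,4], [0,4,0,0,4,0,0,4,0], [0,1],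
    [0,4,0,3,0,0,4,0,3,0,0,4,0,3,0], [0,4,0,3], [0,4,0,0,3], [0,4,0,2], [0,0,3,0,0,0,0,2],
    [0,2,0,2,0,2,0,1,0,0,4]]
    (fun O X K => (O.xor (X.q.c.lor (X.q.e1.lor (X.s.c.lor X.s.e1)))).lor (hit O (X :: K)
      [[0], [0,1], [0,2], [0,3], [0,4], [1,0], [2,0], [0,2,4], [0,3,4], [0,4,2], [0,4,3], [1,0,1],
      [1,0,2], [1,0,3], [2,4,0], [3,0,1], [4,2,0], [0,2,4,2], [0,2,4,3], [1,0,1,4], [1,0,2,4],
      [1,0,4,2], [2,4,0,2], [2,4,0,3]]
      ((tg g1).map (cm O)))) = true := by decide +kernel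

theorem chk1 : chk (KT ++ [g1])
    [[0,0,1,0,0,0,1,0,0,0,1,0], [0,2,0,2,0,3,0,2,0,2,0,3,0,2,0,2,0,3],
    [0,3,0,4,0,1,0,3,0,4,0,1,0,3,0,4,0,1], [0,0,2,0,0,2,0,0,2],
    [0,3,0,1,0,4,0,3,0,1,0,4,0,3,0,1,0,4], [0,3,0,4,0,3,0,4,0,3,0,4],
    [0,1,0,2,0,1,0,1,0,2,0,1,0,1,0,2,0,1], [0,3,0,3,0,0,3,0,3,0,0,3,0,3,0], [0,3,0,3,0,3],
    [0,4,0,4,0,4], [0,0,0,2,0,0,0,2,0,0,0,2], [0,1,0,0,1,0,0,1,0], [0,2,0,1], [0,2,0,4,0],
    [0,4,0,2]]
    (fun O X K => hit O K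
      [[], [0], [1], [2], [3], [0,3], [1,3], [2,3], [3,0], [3,1], [3,2], [0,3,0], [0,3,1], [0,3,2],
      [1,3,0], [1,3,1], [1,3,2], [2,3,0], [2,3,1], [2,3,2], [3,0,3], [3,2,3], [0,3,0,3], [0,3,2,3],
      [1,3,0,3], [1,3,2,3], [2,3,0,3], [2,3,2,3], [3,0,3,0], [3,0,3,1], [3,2,3,1], [3,2,3,2],
      [0,3,0,3,0], [0,3,0,3,1], [1,3,2,3,1], [1,3,2,3,2]]
      [X]) = true := by decide +kernel

theorem chk2 : chk (KT ++ [n2])
    [[0,0,1,0,0,0,1,0,0,0,1,0], [0,2,0,2,0,3,0,2,0,2,0,3,0,2,0,2,0,3], [0,0,2,0,0,2,0,0,2],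
    [0,3,0,3,0,0,3,0,3,0,0,3,0,3,0], [0,3,0,2,0,3,0,2,0,3,0,2], [0,1,0,1,0,1],
    [0,2,0,2,0,0,2,0,2,0,0,2,0,2,0], [0,3,0,4,0,3,0,4,0,3,0,4], [0,4,0,4,0,4],
    [0,2,0,4,0,2,0,4,0,2,0,4], [0,1,0,1,0,3,0,1,0,1,0,3,0,1,0,1,0,3],
    [0,3,0,4,0,1,0,3,0,4,0,1,0,3,0,4,0,1], [0,0,4,0,2,0,0,4,0,2,0,0,4,0,2],
    [0,1,0,4,0,0,1,0,4,0,0,1,0,4,0], [0,1,0,4,0,1], [0,3,0,1,0,4,0,3,0,1,0,4,0,3,0,1,0,4], [0,2],
    [0,0,4], [0,1,0,1,0,0,4]]
    (fun O X K => hit O K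
      [[], [0], [1], [2], [3], [0,3], [1,3], [2,3], [3,0], [3,1], [3,2], [0,3,0], [0,3,1], [0,3,2],
      [1,3,0], [1,3,1], [1,3,2], [2,3,0], [2,3,1], [2,3,2], [3,1,3], [3,2,3], [0,3,1,3], [0,3,2,3],
      [1,3,1,3], [1,3,2,3], [2,3,1,3], [2,3,2,3], [3,1,3,0], [3,1,3,1], [3,1,3,2], [3,2,3,0],
      [3,2,3,1], [3,2,3,2], [0,3,1,3,0], [0,3,1,3,1], [0,3,1,3,2], [0,3,2,3,0], [0,3,2,3,1],
      [0,3,2,3,2], [1,3,1,3,0], [1,3,1,3,1], [1,3,1,3,2], [1,3,2,3,0], [1,3,2,3,1], [1,3,2,3,2],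
      [2,3,1,3,0], [2,3,1,3,1], [2,3,1,3,2], [2,3,2,3,0], [2,3,2,3,1], [2,3,2,3,2], [3,1,3,2,3],
      [3,2,3,1,3], [0,3,1,3,2,3], [0,3,2,3,1,3], [1,3,1,3,2,3], [1,3,2,3,1,3], [2,3,1,3,2,3],
      [2,3,2,3,1,3]]
      [X]) = true := by decide +kernel

variable {G G' : Subgroup (MulAut AA)} {γ : MulAut AA} {f : UT → UT}

theorem has_KT (h : autInducedBy ⊤ AA ≤ G) : ∀ f ∈ KT, Lin f ∧ Has G f := by
  have : ∀ t, Has G (cj t) := fun t =>
    ⟨_, h (Loc.cj_T (mem_norm t)), fun x hx => equivFun_conjAut _ hx⟩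
  simp only [KT, List.forall_mem_cons, this, and_true, List.not_mem_nil, false_imp_iff, implies_true]
  decide +kernel

theorem lin_tg {l : List (UT → UT)} (h : (l.all fun f => decide (Lin f)) = true) : ∀ f ∈ l, Lin f :=
  fun f hf => of_decide_eq_true (List.all_eq_true.1 h f hf)

theorem has_KT' (h : autInducedBy ⊤ AA ≤ G) (h1 : Lin f) (h2 : Has G f) :
    ∀ g ∈ KT ++ [f], Lin g ∧ Has G g :=
  List.forall_mem_append.2 ⟨has_KT h, List.forall_mem_singleton.2 ⟨h1, h2⟩⟩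

theorem lin_mem {C : Subgroup UT} {p q r s x : UT} (hp : x.c → p ∈ C) (hq : x.e0 → q ∈ C)
    (hr : x.e1 → r ∈ C) (hs : x.f → s ∈ C) : lin p q r s x ∈ C := by
  have a : ∀ (b : Bool) {p}, (b → p ∈ C) → cond b p 1 ∈ C := fun b _ h => by
    cases b; exacts [one_mem _, h rfl]
  exact mul_mem (a _ hp) (mul_mem (a _ hq) (mul_mem (a _ hr) (a _ hs)))

variable (hG : H7.SylowIn 2 (autInducedBy ⊤ AA) G)
include hG

theorem clsA (hγ : γ ∈ G) : Inv γ Z1 ∧ Inv γ Z2 ∨ ∃ f ∈ tg rr ++ tg g1 ++ tg n2, Has G f := by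
  obtain ⟨i, O, X, hO, hX, hL, e⟩ := chk_sound hG (has_KT hG.le) chkA hγ
  rw [tb_lor, Bool.or_eq_true] at e
  refine e.imp (fun e => ?_) fun e => has_of_in hO (lin_tg (by decide +kernel))
    (hit_sound hO hL e)
  simp only [tb_not hO, tb_lor, Bool.not_eq_true', Bool.or_eq_false_iff, neq_iff,
    den_cv hO (x := zz) rfl] at e
  refine ⟨fun x hx h => ?_, fun x hx h => ?_⟩ <;> rw [hX x hx, act, e.2.2]
  · exact lin_mem (by simp_all [Z1, sub]) (by simp_all [Z1, sub]) (by simp_all [Z1, sub]) fun _ => rfl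
  · exact lin_mem (by simp_all [Z2, sub]) (fun _ => by simp [Z2, sub, den, e.1])
      (fun _ => by simp [Z2, sub, den, e.2.1]) fun _ => rfl

theorem clsD (h : Has G rr) (hγ : γ ∈ G) : Inv γ CC ∨ ∃ f ∈ tg g1, Has G f := by
  obtain ⟨i, O, X, hO, hX, hL, e⟩ := chk_sound hG (has_KT' hG.le (by decide +kernel) h) chkD hγ
  rw [tb_lor, Bool.or_eq_true] at e
  refine e.imp (fun e x hx h => ?_) fun e => has_of_in hO (lin_tg (by decide +kernel))
    (hit_sound hO hL e)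
  simp only [tb_not hO, tb_lor, Bool.not_eq_true', Bool.or_eq_false_iff] at e
  rw [hX x hx, act]
  exact lin_mem (by simp_all [CC, sub]) (fun _ => by simp [CC, sub, den, e.1, e.2.1])
    (by simp_all [CC, sub]) fun _ => by simp [CC, sub, den, e.2.2.1, e.2.2.2]

theorem le_of_has (hf : f = g1 ∨ f = n2) (h : Has G f) (hT : autInducedBy ⊤ AA ≤ G')
    (h' : Has G' f) : G ≤ G' := fun γ hγ => by
  have h0 : Lin f := by rcases hf with rfl | rfl <;> decide +kernel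
  obtain ⟨i, O, X, ws, hO, hX, e⟩ : ∃ i O X ws, O.testBit i = true ∧ Rep i X γ ∧
      (hit O ((KT ++ [f]).map (cm O)) ws [X]).testBit i = true := by
    rcases hf with rfl | rfl
    · obtain ⟨i, O, X, hO, hX, -, e⟩ := chk_sound hG (has_KT' hG.le h0 h) chk1 hγ
      exact ⟨i, O, X, _, hO, hX, e⟩
    · obtain ⟨i, O, X, hO, hX, -, e⟩ := chk_sound hG (has_KT' hG.le h0 h) chk2 hγ
      exact ⟨i, O, X, _, hO, hX, e⟩
  obtain ⟨M, hM, δ, a, b⟩ := hit_sound hO (in_cm hO (has_KT' hT h0 h')) e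
  rw [List.mem_singleton.1 hM] at b
  rwa [show γ = δ from mulEquiv_ext_equivFun fun x hx => by rw [hX x hx, b x hx]]

end Cfsg.Agent.U42
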